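import Mathlib.CategoryTheory.Monoidal.Functor
import Mathlib.CategoryTheory.Monoidal.NaturalTransformation
import Mathlib.CategoryTheory.Adjunction.Basic
import Mathlib.CategoryTheory.Adjunction.FullyFaithful
import Mathlib.Tactic.CategoryTheory.Coherence
import Mathlib.Tactic.CategoryTheory.Monoidal.Basic

/-!
# Universal arrows along a direct image with a projection formula

`H : C ⥤ D` is a monoidal functor (an inverse image), `A : C` with `c : H A ⟶ 𝟙_`.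

* `act H c E : H (E ⊗ A) ⟶ H E`;
* `IsStr H c`: `E ⊗ A` represents `E' ↦ Hom (H E', H E)` through `act`;
* `IsHomPair A R L e`: `e : R ⊗ A ⟶ L` exhibits `R` as the internal Hom `Hom(A, L)`;
* `IsUnivAlong G P L ξ`: `ξ : G P ⟶ L` is a universal arrow from `G` to `L`;
* `isHomPair_iff`: for `H ⊣ G`, the universal arrows along `G` (tested on objects `H E`) are the internal Hom pairs;
* `isMult_baseChange`, `exists_univ_baseChange`: base change.
-/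

set_option autoImplicit false

open CategoryTheory MonoidalCategory

namespace Groth.Agent.Dual.H356.AbsPair

open Functor.LaxMonoidal Functor.OplaxMonoidal

universe v v' u u' v₁ v₂ u₁ u₂

section Defs

/-- `e : R ⊗ A ⟶ L` exhibits `R` as the internal Hom `Hom(A, L)`. -/
def IsHomPair {C : Type u} [Category.{v} C] [MonoidalCategory C] (A R L : C) (e : R ⊗ A ⟶ L) : Prop :=
  ∀ E : C, Function.Bijective fun x : E ⟶ R => x ▷ A ≫ e

/-- `ξ : G P ⟶ L` is a universal arrow from `G` to `L`. -/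
def IsUnivAlong {D : Type u'} [Category.{v'} D] {C : Type u} [Category.{v} C] (G : D ⥤ C) (P : D) (L : C)
    (ξ : G.obj P ⟶ L) : Prop :=
  ∀ N : D, Function.Bijective fun x : N ⟶ P => G.map x ≫ ξ

end Defs

section HomPair

variable {C : Type u} [Category.{v} C]

lemma bij_comp_iso {X Y Z : C} (g : Y ⟶ Z) [IsIso g] : Function.Bijective fun x : X ⟶ Y => x ≫ g :=
  ⟨fun _ _ h => (cancel_mono g).1 h, fun y => ⟨y ≫ inv g, by simp⟩⟩

lemma bij_iso_comp {X Y Z : C} (g : X ⟶ Y) [IsIso g] : Function.Bijective fun x : Y ⟶ Z => g ≫ x :=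
  ⟨fun _ _ h => (cancel_epi g).1 h, fun y => ⟨inv g ≫ y, by simp⟩⟩

variable [MonoidalCategory C]

lemma IsHomPair.of_iso {A R L R' L' : C} {e : R ⊗ A ⟶ L} (h : IsHomPair A R L e) (f : R' ≅ R) (g : L ≅ L')
    (e' : R' ⊗ A ⟶ L') (he : e' = f.hom ▷ A ≫ e ≫ g.hom) : IsHomPair A R' L' e' := by
  subst he
  intro E
  have h3 := (bij_comp_iso (X := E ⊗ A) g.hom).comp ((h E).comp (bij_comp_iso (X := E) f.hom))
  convert h3 using 2 with x
  simp

lemma IsHomPair.congr_left {A A' R L : C} {e : R ⊗ A ⟶ L} (h : IsHomPair A R L e) (a : A' ≅ A)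
    (e' : R ⊗ A' ⟶ L) (he : e' = R ◁ a.hom ≫ e) : IsHomPair A' R L e' := by
  subst he
  intro E
  have h3 := (bij_iso_comp (Z := L) (E ◁ a.hom)).comp (h E)
  convert h3 using 2 with x
  simp [whisker_exchange_assoc]

/-- Two internal Homs are isomorphic, compatibly with the evaluations. -/
lemma IsHomPair.exists_iso {A R L R' : C} {e : R ⊗ A ⟶ L} {e' : R' ⊗ A ⟶ L} (h : IsHomPair A R L e)
    (h' : IsHomPair A R' L e') : ∃ f : R ≅ R', f.hom ▷ A ≫ e' = e := by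
  obtain ⟨f, hf⟩ := (h' R).2 e
  obtain ⟨g, hg⟩ := (h R').2 e'
  dsimp at hf hg
  refine ⟨⟨f, g, (h R).1 ?_, (h' R').1 ?_⟩, hf⟩
  · simp [hf, hg]
  · simp [hf, hg]

/-- The adjunction `- ⊗ A ⊣ R` gives internal Hom pairs. -/
lemma isHomPair_of_adj {A : C} {R : C ⥤ C} (adj : tensorRight A ⊣ R) (L : C) :
    IsHomPair A (R.obj L) L (adj.counit.app L) := by
  intro E
  have h : (fun x : E ⟶ R.obj L => x ▷ A ≫ adj.counit.app L) = (adj.homEquiv E L).symm :=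
    funext fun x => (adj.homEquiv_counit E L x).symm
  rw [h]
  exact (adj.homEquiv E L).symm.bijective

end HomPair

section Univ

variable {C : Type u} [Category.{v} C] {D : Type u'} [Category.{v'} D] {D₁ : Type u₁} [Category.{v₁} D₁]

lemma IsUnivAlong.comp {G : D ⥤ C} {P : D} {L : C} {ξ : G.obj P ⟶ L} (h : IsUnivAlong G P L ξ) {G₁ : D₁ ⥤ D}
    {P₁ : D₁} {ξ₁ : G₁.obj P₁ ⟶ P} (h₁ : IsUnivAlong G₁ P₁ P ξ₁) :
    IsUnivAlong (G₁ ⋙ G) P₁ L (G.map ξ₁ ≫ ξ) := by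
  intro N
  have h2 : (fun x : N ⟶ P₁ => (G₁ ⋙ G).map x ≫ G.map ξ₁ ≫ ξ) =
      (fun x : G₁.obj N ⟶ P => G.map x ≫ ξ) ∘ (fun x : N ⟶ P₁ => G₁.map x ≫ ξ₁) :=
    funext fun x => by simp
  rw [h2]
  exact (h (G₁.obj N)).comp (h₁ N)

lemma IsUnivAlong.of_iso {G : D ⥤ C} {P : D} {L : C} {ξ : G.obj P ⟶ L} (h : IsUnivAlong G P L ξ) {G' : D ⥤ C}
    (γ : G' ≅ G) {P' : D} (p : P' ≅ P) {L' : C} (l : L ≅ L') (ξ' : G'.obj P' ⟶ L')
    (hξ : ξ' = γ.hom.app P' ≫ G.map p.hom ≫ ξ ≫ l.hom) : IsUnivAlong G' P' L' ξ' := by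
  subst hξ
  intro N
  have h1 := (bij_iso_comp (Z := L') (γ.hom.app N)).comp
    ((bij_comp_iso (X := G.obj N) l.hom).comp ((h N).comp (bij_comp_iso (X := N) p.hom)))
  convert h1 using 2 with x
  simp

/-- A universal arrow can be tested on the image of the left adjoint if the functor has a right adjoint and is
conservative. -/
lemma isUnivAlong_of_test {G : D ⥤ C} {H : C ⥤ D} (adj : H ⊣ G) {G' : C ⥤ D} (adj' : G ⊣ G')
    [G.ReflectsIsomorphisms] {P : D} {L : C} {ξ : G.obj P ⟶ L}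
    (h : ∀ E : C, Function.Bijective fun y : H.obj E ⟶ P => G.map y ≫ ξ) : IsUnivAlong G P L ξ := by
  let ψ : P ⟶ G'.obj L := adj'.homEquiv _ _ ξ
  have key : ∀ (N : D) (y : N ⟶ P), G.map y ≫ ξ = (adj'.homEquiv _ _).symm (y ≫ ψ) := by
    intro N y
    rw [Adjunction.homEquiv_naturality_left_symm, Equiv.symm_apply_apply]
  have h1 : ∀ E : C, Function.Bijective fun y : H.obj E ⟶ P => y ≫ ψ := by
    intro E
    have := ((adj'.homEquiv (H.obj E) L).bijective).comp (h E)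
    convert this using 2 with y
    simp [key]
  have h2 : ∀ E : C, Function.Bijective fun x : E ⟶ G.obj P => x ≫ G.map ψ := by
    intro E
    have := ((adj.homEquiv E (G'.obj L)).bijective).comp ((h1 E).comp (adj.homEquiv E P).symm.bijective)
    convert this using 2 with x
    simp [Adjunction.homEquiv_naturality_right]
  have h3 : IsIso (G.map ψ) := by
    obtain ⟨g, hg⟩ := (h2 (G.obj (G'.obj L))).2 (𝟙 _)
    dsimp at hg
    refine ⟨g, (h2 _).1 ?_, hg⟩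
    simp [hg]
  have h4 : IsIso ψ := isIso_of_reflects_iso ψ G
  intro N
  have := ((adj'.homEquiv N L).symm.bijective).comp (bij_comp_iso (X := N) ψ)
  convert this using 2 with y
  exact key N y

end Univ

section Act

variable {C : Type u} [Category.{v} C] [MonoidalCategory C] {D : Type u'} [Category.{v'} D] [MonoidalCategory D]
  (H : C ⥤ D) [H.Monoidal] {A : C} (c : H.obj A ⟶ 𝟙_ D)

/-- `H (E ⊗ A) ⟶ H E`. -/
def act (E : C) : H.obj (E ⊗ A) ⟶ H.obj E := δ H E A ≫ H.obj E ◁ c ≫ (ρ_ _).hom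

@[reassoc]
lemma act_naturality {E E' : C} (f : E ⟶ E') : H.map (f ▷ A) ≫ act H c E' = act H c E ≫ H.map f := by
  rw [act, ← δ_natural_left_assoc, ← whisker_exchange_assoc, act]
  simp

/-- `E ⊗ A` represents `Hom (H -, H E)`. -/
def IsStr : Prop := ∀ E' E : C, Function.Bijective fun x : E' ⟶ E ⊗ A => H.map x ≫ act H c E

/-- A multiplication compatible with `c`. -/
def IsMult (m : A ⊗ A ⟶ A) : Prop := H.map m ≫ c = act H c A ≫ c

variable {H c}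

lemma act_act {m : A ⊗ A ⟶ A} (hm : IsMult H c m) (M : C) :
    act H c (M ⊗ A) ≫ act H c M = H.map ((α_ M A A).hom ≫ M ◁ m) ≫ act H c M := by
  unfold IsMult at hm
  have h1 : H.map (M ◁ m) ≫ act H c M = δ H M (A ⊗ A) ≫ H.obj M ◁ (act H c A ≫ c) ≫ (ρ_ _).hom := by
    rw [act, ← δ_natural_right_assoc, ← MonoidalCategory.whiskerLeft_comp_assoc, hm]
  rw [H.map_comp, Category.assoc, h1]
  simp only [act, MonoidalCategory.whiskerLeft_comp, Category.assoc]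
  have h2 := Functor.OplaxMonoidal.associativity H M A A
  rw [← reassoc_of% h2]
  congr 1
  calc
    _ = (H.obj (M ⊗ A) ◁ c ≫ δ H M A ▷ 𝟙_ D) ≫ (ρ_ _).hom ≫ H.obj M ◁ c ≫ (ρ_ _).hom := by
      simp
    _ = (δ H M A ▷ H.obj A ≫ (H.obj M ⊗ H.obj A) ◁ c) ≫ (ρ_ _).hom ≫ H.obj M ◁ c ≫ (ρ_ _).hom := by
      rw [whisker_exchange]
    _ = _ := by
      simp only [Category.assoc]
      congr 1
      monoidal

variable {G : D ⥤ C} (adj : H ⊣ G)

variable (c) in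
/-- `E ⊗ A ⟶ G (H E)`, the projection formula. -/
def π (E : C) : E ⊗ A ⟶ G.obj (H.obj E) := adj.homEquiv _ _ (act H c E)

lemma isIso_π (h : IsStr H c) (E : C) : IsIso (π c adj E) := by
  have h1 : ∀ E' : C, Function.Bijective fun x : E' ⟶ E ⊗ A => x ≫ π c adj E := by
    intro E'
    convert (adj.homEquiv _ _).bijective.comp (h E' E) using 2 with x
    simp [π, Adjunction.homEquiv_naturality_left]
  obtain ⟨g, hg⟩ := (h1 _).2 (𝟙 _)
  dsimp at hg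
  exact ⟨g, (h1 _).1 (by simp [hg]), hg⟩

lemma isStr_of_isIso_π (h : ∀ E, IsIso (π c adj E)) : IsStr H c := by
  intro E' E
  have := h E
  convert (adj.homEquiv _ _).symm.bijective.comp (bij_comp_iso (X := E') (π c adj E)) using 2 with x
  simp [π, Adjunction.homEquiv_naturality_left_symm]

/-- A representation of `G P` by an object `R` with an action of `A`. -/
structure Rep (P : D) (R : C) (a : H.obj R ⟶ P) (r : R ⊗ A ⟶ R) : Prop where
  bij : ∀ E : C, Function.Bijective fun x : E ⟶ R => H.map x ≫ a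
  act : H.map r ≫ a = act H c R ≫ a

omit [MonoidalCategory C] [MonoidalCategory D] [H.Monoidal] in
lemma isIso_homEquiv_rep {P : D} {R : C} {a : H.obj R ⟶ P}
    (ha : ∀ E : C, Function.Bijective fun x : E ⟶ R => H.map x ≫ a) : IsIso (adj.homEquiv _ _ a) := by
  have h1 : ∀ E' : C, Function.Bijective fun x : E' ⟶ R => x ≫ adj.homEquiv _ _ a := by
    intro E'
    convert (adj.homEquiv _ _).bijective.comp (ha E') using 2 with x
    simp [Adjunction.homEquiv_naturality_left]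
  obtain ⟨g, hg⟩ := (h1 _).2 (𝟙 _)
  dsimp at hg
  exact ⟨g, (h1 _).1 (by simp [hg]), hg⟩

variable (c) in
lemma π_comp {P : D} {R : C} {a : H.obj R ⟶ P} {r : R ⊗ A ⟶ R} (hr : H.map r ≫ a = act H c R ≫ a) {E : C}
    (x : E ⟶ R) : π c adj E ≫ G.map (H.map x ≫ a) = x ▷ A ≫ r ≫ adj.homEquiv _ _ a := by
  rw [π, ← Adjunction.homEquiv_naturality_right, ← Adjunction.homEquiv_naturality_left,
    ← Adjunction.homEquiv_naturality_left]
  congr 1
  rw [← act_naturality_assoc, ← hr]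

/-- The universal arrows along `G`, tested on the objects `H E`, are the internal Hom pairs. -/
theorem isHomPair_iff (hc : IsStr H c) {P : D} {R : C} {a : H.obj R ⟶ P} {r : R ⊗ A ⟶ R}
    (h : Rep (c := c) P R a r) {L : C} (ξ : G.obj P ⟶ L) (e : R ⊗ A ⟶ L)
    (he : e = r ≫ adj.homEquiv _ _ a ≫ ξ) :
    IsHomPair A R L e ↔ ∀ E : C, Function.Bijective fun y : H.obj E ⟶ P => G.map y ≫ ξ := by
  have key : ∀ (E : C) (x : E ⟶ R), x ▷ A ≫ e = π c adj E ≫ G.map (H.map x ≫ a) ≫ ξ := by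
    intro E x
    rw [← Category.assoc (π c adj E), π_comp c adj h.act x, he]
    simp
  have hπ : ∀ E, IsIso (π c adj E) := isIso_π adj hc
  refine forall_congr' fun E => ?_
  have e1 : (fun x : E ⟶ R => x ▷ A ≫ e) =
      (fun z => π c adj E ≫ z) ∘ (fun y : H.obj E ⟶ P => G.map y ≫ ξ) ∘ (fun x : E ⟶ R => H.map x ≫ a) := by
    funext x
    exact key E x
  rw [e1, Function.Bijective.of_comp_iff' (bij_iso_comp (π c adj E)), Function.Bijective.of_comp_iff _ (h.bij E)]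

/-- The representation of `G (H M)` by `M ⊗ A`. -/
lemma rep_tensor (hc : IsStr H c) {m : A ⊗ A ⟶ A} (hm : IsMult H c m) (M : C) :
    Rep (c := c) (H.obj M) (M ⊗ A) (act H c M) ((α_ M A A).hom ≫ M ◁ m) where
  bij E := hc E M
  act := (act_act hm M).symm

/-- A multiplication exists if `A` represents `G 1`. -/
lemma exists_isMult (hb : ∀ E : C, Function.Bijective fun x : E ⟶ A => H.map x ≫ c) : ∃ m, IsMult H c m :=
  (hb (A ⊗ A)).2 _

end Act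

section BaseChange

variable {C₀ : Type u₁} [Category.{v₁} C₀] [MonoidalCategory C₀] {D₀ : Type u₂} [Category.{v₂} D₀]
  [MonoidalCategory D₀] (H₀ : C₀ ⥤ D₀) [H₀.Monoidal] {A₀ : C₀} (c₀ : H₀.obj A₀ ⟶ 𝟙_ D₀)
  {C : Type u} [Category.{v} C] [MonoidalCategory C] {D : Type u'} [Category.{v'} D] [MonoidalCategory D]
  (H : C ⥤ D) [H.Monoidal] (U : C₀ ⥤ C) [U.Monoidal] (V : D₀ ⥤ D) [V.Monoidal]
  (σ : U ⋙ H ≅ H₀ ⋙ V)

/-- The base change of `c₀`. -/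
def bcStr : H.obj (U.obj A₀) ⟶ 𝟙_ D := σ.hom.app A₀ ≫ V.map c₀ ≫ η V

variable [σ.hom.IsMonoidal]

lemma isMult_baseChange {m₀ : A₀ ⊗ A₀ ⟶ A₀} (hm : IsMult H₀ c₀ m₀) :
    IsMult H (bcStr H₀ c₀ H U V σ) (μ U A₀ A₀ ≫ U.map m₀) := by
  unfold IsMult at hm ⊢
  have h1 : H.map (μ U A₀ A₀) ≫ σ.hom.app (A₀ ⊗ A₀) =
      δ H (U.obj A₀) (U.obj A₀) ≫ (σ.hom.app A₀ ⊗ₘ σ.hom.app A₀) ≫
        μ V (H₀.obj A₀) (H₀.obj A₀) ≫ V.map (μ H₀ A₀ A₀) := by
    have h2 := NatTrans.IsMonoidal.tensor (τ := σ.hom) A₀ A₀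
    rw [Functor.LaxMonoidal.comp_μ, Functor.LaxMonoidal.comp_μ] at h2
    rw [← cancel_epi (μ H (U.obj A₀) (U.obj A₀))]
    simpa using h2
  have h3 : H.map (U.map m₀) ≫ σ.hom.app A₀ = σ.hom.app (A₀ ⊗ A₀) ≫ V.map (H₀.map m₀) :=
    σ.hom.naturality m₀
  calc
    H.map (μ U A₀ A₀ ≫ U.map m₀) ≫ bcStr H₀ c₀ H U V σ =
        H.map (μ U A₀ A₀) ≫ (H.map (U.map m₀) ≫ σ.hom.app A₀) ≫ V.map c₀ ≫ η V := by
      simp [bcStr]
    _ = (H.map (μ U A₀ A₀) ≫ σ.hom.app (A₀ ⊗ A₀)) ≫ V.map (H₀.map m₀ ≫ c₀) ≫ η V := by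
      rw [h3]; simp
    _ = δ H (U.obj A₀) (U.obj A₀) ≫ (σ.hom.app A₀ ⊗ₘ σ.hom.app A₀) ≫
        μ V (H₀.obj A₀) (H₀.obj A₀) ≫ V.map (μ H₀ A₀ A₀ ≫ act H₀ c₀ A₀) ≫ V.map c₀ ≫ η V := by
      rw [h1, hm]; simp
    _ = δ H (U.obj A₀) (U.obj A₀) ≫ (σ.hom.app A₀ ⊗ₘ σ.hom.app A₀) ≫
        (μ V (H₀.obj A₀) (H₀.obj A₀) ≫ V.map (H₀.obj A₀ ◁ c₀)) ≫ V.map (ρ_ _).hom ≫ V.map c₀ ≫ η V := by
      rw [act]; simp
    _ = _ := by
      rw [← Functor.LaxMonoidal.μ_natural_right, Functor.Monoidal.map_rightUnitor, act, bcStr]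
      simp only [Category.assoc, Functor.Monoidal.μ_δ_assoc, tensorHom_def, MonoidalCategory.whiskerLeft_comp]
      congr 1
      have h4 : σ.hom.app A₀ ▷ H.obj (U.obj A₀) ≫ V.obj (H₀.obj A₀) ◁ (σ.hom.app A₀ ≫ V.map c₀ ≫ η V) ≫
          (ρ_ (V.obj (H₀.obj A₀))).hom = H.obj (U.obj A₀) ◁ (σ.hom.app A₀ ≫ V.map c₀ ≫ η V) ≫
          (ρ_ (H.obj (U.obj A₀))).hom ≫ σ.hom.app A₀ := by
        rw [← MonoidalCategory.rightUnitor_naturality]
        exact (whisker_exchange_assoc _ _ _).symm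
      simp only [MonoidalCategory.whiskerLeft_comp, Category.assoc] at h4
      exact (reassoc_of% h4) (V.map c₀ ≫ η V)

/-- `t(x) = x ⊗ U A` followed by the base change of `e`, twisted by `M`. -/
def tw (U : C₀ ⥤ C) [U.Monoidal] (M : C) {A R L : C₀} (e : R ⊗ A ⟶ L) : (M ⊗ U.obj R) ⊗ U.obj A ⟶ M ⊗ U.obj L :=
  (α_ M (U.obj R) (U.obj A)).hom ≫ M ◁ (μ U R A ≫ U.map e)

/-- Base change of universal arrows. -/
theorem exists_univ_baseChange {G₀ : D₀ ⥤ C₀} (adj₀ : H₀ ⊣ G₀) (hs₀ : IsStr H₀ c₀)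
    (hb₀ : ∀ E : C₀, Function.Bijective fun x : E ⟶ A₀ => H₀.map x ≫ c₀)
    {G : D ⥤ C} (adj : H ⊣ G) (hs : IsStr H (bcStr H₀ c₀ H U V σ)) {G' : C ⥤ D} (adj' : G ⊣ G')
    [G.ReflectsIsomorphisms] {L : C₀} (ξ : G₀.obj (𝟙_ D₀) ⟶ L) (hξ : IsUnivAlong G₀ (𝟙_ D₀) L ξ) (M : C)
    (hL : ∀ e : A₀ ⊗ A₀ ⟶ L, IsHomPair A₀ A₀ L e → IsHomPair (U.obj A₀) (M ⊗ U.obj A₀) (M ⊗ U.obj L) (tw U M e)) :
    ∃ ξ' : G.obj (H.obj M) ⟶ M ⊗ U.obj L, IsUnivAlong G (H.obj M) (M ⊗ U.obj L) ξ' := by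
  obtain ⟨m₀, hm₀⟩ := exists_isMult hb₀
  let a₀ := adj₀.homEquiv _ _ c₀
  have hr₀ : Rep (c := c₀) (𝟙_ D₀) A₀ c₀ m₀ := ⟨hb₀, hm₀⟩
  have h1 : IsHomPair A₀ A₀ L (m₀ ≫ a₀ ≫ ξ) :=
    (isHomPair_iff adj₀ hs₀ hr₀ ξ (m₀ ≫ a₀ ≫ ξ) rfl).2 fun E => hξ _
  have h2 := hL _ h1
  have hm := isMult_baseChange H₀ c₀ H U V σ hm₀
  have hr := rep_tensor hs hm M
  have hi : IsIso (adj.homEquiv _ _ (act H (bcStr H₀ c₀ H U V σ) M)) := isIso_homEquiv_rep adj hr.bij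
  refine ⟨inv (adj.homEquiv _ _ (act H (bcStr H₀ c₀ H U V σ) M)) ≫ M ◁ U.map (a₀ ≫ ξ), ?_⟩
  refine isUnivAlong_of_test adj adj' ((isHomPair_iff adj hs hr _ _ ?_).1 h2)
  simp [tw]

end BaseChange

end Groth.Agent.Dual.H356.AbsPair
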