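import Groth.Agent.Dual.H356.AbsPair

/-!
# Complements on structure pairs
-/

set_option autoImplicit false

open CategoryTheory MonoidalCategory

namespace Groth.Agent.Dual.H356.AbsStr

open Functor.LaxMonoidal Functor.OplaxMonoidal AbsPair

universe v v' u u' v₁ v₂ u₁ u₂

section

variable {C : Type u} [Category.{v} C] [MonoidalCategory C] {D : Type u'} [Category.{v'} D] [MonoidalCategory D]
  (H : C ⥤ D) [H.Monoidal] {A A' : C}

lemma act_comp (w : A' ⟶ A) (c : H.obj A ⟶ 𝟙_ D) (E : C) :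
    act H (H.map w ≫ c) E = H.map (E ◁ w) ≫ act H c E := by
  rw [act, act, MonoidalCategory.whiskerLeft_comp, Category.assoc, δ_natural_right_assoc]

variable {H}

lemma isStr_of_iso {c : H.obj A ⟶ 𝟙_ D} (h : IsStr H c) (w : A' ⟶ A) [IsIso w] (c' : H.obj A' ⟶ 𝟙_ D)
    (hc : c' = H.map w ≫ c) : IsStr H c' := by
  subst hc
  intro E' E
  convert (h E' E).comp (bij_comp_iso (X := E') (E ◁ w)) using 2 with x
  simp [act_comp]

omit [MonoidalCategory C] [H.Monoidal] in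
lemma bij_of_iso {c : H.obj A ⟶ 𝟙_ D} (h : ∀ E : C, Function.Bijective fun x : E ⟶ A => H.map x ≫ c) (w : A' ⟶ A)
    [IsIso w] (c' : H.obj A' ⟶ 𝟙_ D) (hc : c' = H.map w ≫ c) (E : C) :
    Function.Bijective fun x : E ⟶ A' => H.map x ≫ c' := by
  subst hc
  convert (h E).comp (bij_comp_iso (X := E) w) using 2 with x
  simp

variable {G : D ⥤ C} (adj : H ⊣ G) (c : H.obj A ⟶ 𝟙_ D)

lemma π_naturality {E E' : C} (f : E ⟶ E') : f ▷ A ≫ π c adj E' = π c adj E ≫ G.map (H.map f) := by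
  rw [π, π, ← Adjunction.homEquiv_naturality_left, ← Adjunction.homEquiv_naturality_right, act_naturality]

lemma isIso_π_of_iso {E E' : C} (e : E ≅ E') (h : IsIso (π c adj E)) : IsIso (π c adj E') := by
  have h1 := π_naturality adj c e.inv
  have h2 : π c adj E' = (e.inv ▷ A) ≫ π c adj E ≫ G.map (H.map e.hom) := by
    rw [reassoc_of% h1, ← G.map_comp, ← H.map_comp, e.inv_hom_id, H.map_id, G.map_id, Category.comp_id]
  rw [h2]
  infer_instance

omit [MonoidalCategory C] [H.Monoidal] in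
/-- The counit at `𝟙_`. -/
lemma bij_counit (E : C) : Function.Bijective fun x : E ⟶ G.obj (𝟙_ D) => H.map x ≫ adj.counit.app (𝟙_ D) := by
  have h : (fun x : E ⟶ G.obj (𝟙_ D) => H.map x ≫ adj.counit.app (𝟙_ D)) = (adj.homEquiv E (𝟙_ D)).symm :=
    funext fun x => (adj.homEquiv_counit E (𝟙_ D) x).symm
  rw [h]
  exact (adj.homEquiv E (𝟙_ D)).symm.bijective

omit [MonoidalCategory C] [H.Monoidal] in
lemma homEquiv_counit' (c : H.obj A ⟶ 𝟙_ D) : c = H.map (adj.homEquiv _ _ c) ≫ adj.counit.app (𝟙_ D) :=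
  ((adj.homEquiv_counit _ _ _).symm.trans (Equiv.symm_apply_apply _ _)).symm

end

section Lift

variable {C : Type u} [Category.{v} C] [MonoidalCategory C] {D : Type u'} [Category.{v'} D] [MonoidalCategory D]
  {C' : Type u₁} [Category.{v₁} C'] [MonoidalCategory C'] {D' : Type u₂} [Category.{v₂} D'] [MonoidalCategory D']
  (L : C ⥤ D) [L.Monoidal] (L' : C' ⥤ D') [L'.Monoidal] (H : D ⥤ D') [H.Monoidal] (F : C ⥤ C') [F.Monoidal]
  (ε : L ⋙ H ≅ F ⋙ L')

/-- The morphism `H (L P) ⟶ 𝟙_` induced by `F P ⟶ 𝟙_`. -/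
def liftC {P : C} (q : F.obj P ⟶ 𝟙_ C') : H.obj (L.obj P) ⟶ 𝟙_ D' := ε.hom.app P ≫ L'.map q ≫ η L'

variable [ε.hom.IsMonoidal]

lemma act_liftC {P : C} (q : F.obj P ⟶ 𝟙_ C') (K : C) :
    act H (liftC L L' H F ε q) (L.obj K) ≫ ε.hom.app K =
      H.map (μ L K P) ≫ ε.hom.app (K ⊗ P) ≫ L'.map (act F q K) := by
  have h1 : H.map (μ L K P) ≫ ε.hom.app (K ⊗ P) = δ H (L.obj K) (L.obj P) ≫ (ε.hom.app K ⊗ₘ ε.hom.app P) ≫
      μ L' (F.obj K) (F.obj P) ≫ L'.map (μ F K P) := by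
    have h2 := NatTrans.IsMonoidal.tensor (τ := ε.hom) K P
    rw [Functor.LaxMonoidal.comp_μ, Functor.LaxMonoidal.comp_μ] at h2
    rw [← cancel_epi (μ H (L.obj K) (L.obj P))]
    simpa using h2
  rw [reassoc_of% h1, ← L'.map_comp, act, act, Functor.Monoidal.μ_δ_assoc, L'.map_comp, ← μ_natural_right_assoc,
    Functor.Monoidal.map_rightUnitor, Functor.Monoidal.μ_δ_assoc, Category.assoc, Category.assoc]
  refine congrArg (fun t => δ H (L.obj K) (L.obj P) ≫ t) ?_
  rw [liftC, tensorHom_def]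
  simp only [MonoidalCategory.whiskerLeft_comp, Category.assoc]
  rw [← MonoidalCategory.rightUnitor_naturality, whisker_exchange_assoc, whisker_exchange_assoc,
    whisker_exchange_assoc]
  rfl

end Lift

end Groth.Agent.Dual.H356.AbsStr
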