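import Groth.Agent.Dual.H356.AbsPair
import Groth.Agent.Dcoh.DualLoc
import Groth.Agent.Dcoh.DualMap

/-!
# Twisted base change of internal Hom pairs

* `IsHomPair.restrict`: restriction along a monoidal functor with a left adjoint satisfying the projection formula;
* `isHomPair_dual`: `L ⊗ Y = Hom(F, L)` for `F` with dual `Y`;
* `isHomPair_tw_dual`: the twisted base change `tw U M` of the pair of `isHomPair_dual` is an internal Hom pair;
* `tw_comp`, `bij_tw_of_approx`: comparison along an approximation `F ⟶ A`;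
* `map_tw`: compatibility of `tw` with restriction; `bij_of_restrict`.
-/

set_option autoImplicit false

open CategoryTheory MonoidalCategory

namespace Groth.Agent.Dual.H356.AbsTw

open Functor.LaxMonoidal Functor.OplaxMonoidal AbsPair Groth.Agent.Dcoh

universe v v' u u' v₁ v₂ u₁ u₂

section Restrict

variable {C : Type u} [Category.{v} C] [MonoidalCategory C] {D : Type u'} [Category.{v'} D] [MonoidalCategory D]
  (J : C ⥤ D) [J.Monoidal] {J' : D ⥤ C} (adjJ : J' ⊣ J)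

/-- Internal Hom pairs restrict along a monoidal functor with a left adjoint satisfying the projection formula. -/
theorem isHomPair_restrict {A R L : C} {e : R ⊗ A ⟶ L} (h : IsHomPair A R L e)
    [IsIso (DualLoc.proj J adjJ A)] :
    IsHomPair (J.obj A) (J.obj R) (J.obj L) (μ J R A ≫ J.map e) := by
  intro E
  have h1 : ∀ y : J'.obj E ⟶ R, (adjJ.homEquiv _ _ y) ▷ J.obj A ≫ μ J R A ≫ J.map e =
      adjJ.homEquiv _ _ ((DualLoc.proj J adjJ A).app E ≫ y ▷ A ≫ e) := by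
    intro y
    rw [Adjunction.homEquiv_naturality_right adjJ, DualLoc.proj]
    simp only [Functor.comp_obj, Equiv.apply_symm_apply]
    rw [Adjunction.homEquiv_unit, comp_whiskerRight, Category.assoc, Category.assoc, μ_natural_left_assoc,
      ← J.map_comp]
  have h2 : (fun x : E ⟶ J.obj R => x ▷ J.obj A ≫ μ J R A ≫ J.map e) =
      (adjJ.homEquiv _ _) ∘ (fun z => (DualLoc.proj J adjJ A).app E ≫ z) ∘ (fun y : J'.obj E ⟶ R => y ▷ A ≫ e) ∘
        (adjJ.homEquiv _ _).symm := by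
    funext x
    obtain ⟨y, rfl⟩ := (adjJ.homEquiv _ _).surjective x
    simpa using h1 y
  rw [h2]
  have : IsIso ((DualLoc.proj J adjJ A).app E) := inferInstance
  exact (adjJ.homEquiv _ _).bijective.comp ((bij_iso_comp ((DualLoc.proj J adjJ A).app E)).comp
    ((h _).comp (adjJ.homEquiv _ _).symm.bijective))

end Restrict

section Dual

variable {C : Type u} [Category.{v} C] [MonoidalCategory C]

/-- The evaluation `(L ⊗ Y) ⊗ F ⟶ L`. -/
def evd (F Y L : C) [ExactPairing F Y] : (L ⊗ Y) ⊗ F ⟶ L := (α_ L Y F).hom ≫ L ◁ ε_ F Y ≫ (ρ_ L).hom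

lemma isHomPair_dual (F Y L : C) [ExactPairing F Y] : IsHomPair F (L ⊗ Y) L (evd F Y L) :=
  fun E => (tensorRightHomEquiv E F Y L).symm.bijective

variable {C₀ : Type u₁} [Category.{v₁} C₀] [MonoidalCategory C₀] (U : C₀ ⥤ C) [U.Monoidal]

/-- The twisted base change of the pair `(L ⊗ Y, L)` for `F` dualizable is an internal Hom pair. -/
theorem isHomPair_tw_dual (M : C) (F Y L : C₀) [ExactPairing F Y] :
    IsHomPair (U.obj F) (M ⊗ U.obj (L ⊗ Y)) (M ⊗ U.obj L) (tw U M (evd F Y L)) := by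
  let h := DualMap.mapPairing U F Y
  refine (isHomPair_dual (U.obj F) (U.obj Y) (M ⊗ U.obj L)).of_iso
    (M ◁ᵢ (Functor.Monoidal.μIso U L Y).symm ≪≫ (α_ _ _ _).symm) (Iso.refl _) _ ?_
  have h1 : ε_ (U.obj F) (U.obj Y) = μ U Y F ≫ U.map (ε_ F Y) ≫ η U := rfl
  have h2 := Functor.LaxMonoidal.associativity U L Y F
  have h3 : U.map (L ◁ ε_ F Y) = δ U L (Y ⊗ F) ≫ U.obj L ◁ U.map (ε_ F Y) ≫ μ U L (𝟙_ C₀) :=
    Functor.Monoidal.map_whiskerLeft U L (ε_ F Y)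
  have h4 : U.map (ρ_ L).hom = δ U L (𝟙_ C₀) ≫ U.obj L ◁ η U ≫ (ρ_ (U.obj L)).hom :=
    Functor.Monoidal.map_rightUnitor U L
  have h5 : μ U (L ⊗ Y) F ≫ U.map (α_ L Y F).hom =
      δ U L Y ▷ U.obj F ≫ (α_ _ _ _).hom ≫ U.obj L ◁ μ U Y F ≫ μ U L (Y ⊗ F) := by
    rw [← cancel_epi (μ U L Y ▷ U.obj F), h2]
    simp
  have h6 : μ U (L ⊗ Y) F ≫ U.map (evd F Y L) = δ U L Y ▷ U.obj F ≫ (α_ _ _ _).hom ≫
      U.obj L ◁ (ε_ (U.obj F) (U.obj Y)) ≫ (ρ_ (U.obj L)).hom := by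
    rw [evd, U.map_comp, U.map_comp, reassoc_of% h5, h3, h4, h1]
    simp
  rw [tw, h6, evd]
  simp only [MonoidalCategory.whiskerLeft_comp, Iso.trans_hom, whiskerLeftIso_hom, Iso.symm_hom,
    Functor.Monoidal.μIso_inv, comp_whiskerRight, Category.assoc, Iso.refl_hom, Category.comp_id]
  monoidal

end Dual

section Approx

variable {C : Type u} [Category.{v} C] [MonoidalCategory C]
  {C₀ : Type u₁} [Category.{v₁} C₀] [MonoidalCategory C₀] (U : C₀ ⥤ C) [U.Monoidal] (M : C)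

lemma tw_comp {A F R R' L : C₀} (e : R ⊗ A ⟶ L) (e' : R' ⊗ F ⟶ L) (α : F ⟶ A) (ρ : R ⟶ R')
    (h : ρ ▷ F ≫ e' = R ◁ α ≫ e) {E : C} (x : E ⟶ M ⊗ U.obj R) :
    (x ≫ M ◁ U.map ρ) ▷ U.obj F ≫ tw U M e' = E ◁ U.map α ≫ x ▷ U.obj A ≫ tw U M e := by
  have h1 : (M ◁ U.map ρ) ▷ U.obj F ≫ tw U M e' = (M ⊗ U.obj R) ◁ U.map α ≫ tw U M e := by
    have h0 : U.map ρ ▷ U.obj F ≫ μ U R' F ≫ U.map e' = U.obj R ◁ U.map α ≫ μ U R A ≫ U.map e := by
      rw [μ_natural_left_assoc, ← U.map_comp, h, U.map_comp, μ_natural_right_assoc]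
    rw [tw, tw, associator_naturality_middle_assoc, ← MonoidalCategory.whiskerLeft_comp, h0,
      MonoidalCategory.whiskerLeft_comp, associator_naturality_right_assoc]
  rw [comp_whiskerRight, Category.assoc, h1, whisker_exchange_assoc]

/-- Bijectivity of `t` for `A` from an approximation by a dualizable object. -/
theorem bij_tw_of_approx {A F Y R L : C₀} [ExactPairing F Y] (e : R ⊗ A ⟶ L) (α : F ⟶ A) (ρ : R ⟶ L ⊗ Y)
    (h : ρ ▷ F ≫ evd F Y L = R ◁ α ≫ e) (E : C)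
    (h1 : Function.Bijective fun x : E ⟶ M ⊗ U.obj R => x ≫ M ◁ U.map ρ)
    (h2 : Function.Bijective fun z : E ⊗ U.obj A ⟶ M ⊗ U.obj L => E ◁ U.map α ≫ z) :
    Function.Bijective fun x : E ⟶ M ⊗ U.obj R => x ▷ U.obj A ≫ tw U M e := by
  have h3 := (isHomPair_tw_dual U M F Y L E).comp h1
  have h4 : (fun x : E ⟶ M ⊗ U.obj (L ⊗ Y) => x ▷ U.obj F ≫ tw U M (evd F Y L)) ∘
      (fun x : E ⟶ M ⊗ U.obj R => x ≫ M ◁ U.map ρ) =
      (fun z : E ⊗ U.obj A ⟶ M ⊗ U.obj L => E ◁ U.map α ≫ z) ∘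
        (fun x : E ⟶ M ⊗ U.obj R => x ▷ U.obj A ≫ tw U M e) :=
    funext fun x => tw_comp U M e (evd F Y L) α ρ h x
  rw [h4] at h3
  exact (Function.Bijective.of_comp_iff' h2 _).1 h3

end Approx

section Local

variable {C : Type u} [Category.{v} C] [MonoidalCategory C]
  {C₀ : Type u₁} [Category.{v₁} C₀] [MonoidalCategory C₀] (U : C₀ ⥤ C) [U.Monoidal] (M : C)
  {D : Type u'} [Category.{v'} D] [MonoidalCategory D] {D₀ : Type u₂} [Category.{v₂} D₀] [MonoidalCategory D₀]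
  (U₁ : D₀ ⥤ D) [U₁.Monoidal] (J₀ : C₀ ⥤ D₀) [J₀.Monoidal] (J : C ⥤ D) [J.Monoidal]
  (τ : U ⋙ J ≅ J₀ ⋙ U₁) [τ.hom.IsMonoidal]

/-- `J (M ⊗ U R) ≅ J M ⊗ U₁ (J₀ R)`. -/
def κ (R : C₀) : J.obj (M ⊗ U.obj R) ≅ J.obj M ⊗ U₁.obj (J₀.obj R) :=
  (Functor.Monoidal.μIso J M (U.obj R)).symm ≪≫ J.obj M ◁ᵢ τ.app R

lemma map_tw {A R L : C₀} (e : R ⊗ A ⟶ L) :
    μ J (M ⊗ U.obj R) (U.obj A) ≫ J.map (tw U M e) ≫ (κ U M U₁ J₀ J τ L).hom =
      ((κ U M U₁ J₀ J τ R).hom ⊗ₘ τ.hom.app A) ≫ tw U₁ (J.obj M) (μ J₀ R A ≫ J₀.map e) := by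
  have h1 : J.map (U.map e) ≫ τ.hom.app L = τ.hom.app (R ⊗ A) ≫ U₁.map (J₀.map e) := τ.hom.naturality e
  have h2 : μ J (U.obj R) (U.obj A) ≫ J.map (μ U R A) ≫ τ.hom.app (R ⊗ A) =
      (τ.hom.app R ⊗ₘ τ.hom.app A) ≫ μ U₁ (J₀.obj R) (J₀.obj A) ≫ U₁.map (μ J₀ R A) := by
    have h2 := NatTrans.IsMonoidal.tensor (τ := τ.hom) R A
    rw [Functor.LaxMonoidal.comp_μ, Functor.LaxMonoidal.comp_μ] at h2
    simpa using h2
  have h5 : μ J (M ⊗ U.obj R) (U.obj A) ≫ J.map (α_ M (U.obj R) (U.obj A)).hom =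
      δ J M (U.obj R) ▷ J.obj (U.obj A) ≫ (α_ _ _ _).hom ≫ J.obj M ◁ μ J (U.obj R) (U.obj A) ≫
        μ J M (U.obj R ⊗ U.obj A) := by
    have h2 := Functor.LaxMonoidal.associativity J M (U.obj R) (U.obj A)
    rw [← cancel_epi (μ J M (U.obj R) ▷ J.obj (U.obj A)), h2]
    simp
  have h6 : J.map (M ◁ (μ U R A ≫ U.map e)) = δ J M (U.obj R ⊗ U.obj A) ≫
      J.obj M ◁ J.map (μ U R A ≫ U.map e) ≫ μ J M (U.obj L) := Functor.Monoidal.map_whiskerLeft J M _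
  calc
    _ = δ J M (U.obj R) ▷ J.obj (U.obj A) ≫ (α_ _ _ _).hom ≫ J.obj M ◁ (μ J (U.obj R) (U.obj A) ≫
          J.map (μ U R A) ≫ J.map (U.map e) ≫ τ.hom.app L) := by
      rw [tw, J.map_comp, Category.assoc, reassoc_of% h5, h6, κ, Iso.trans_hom, Iso.symm_hom,
        Functor.Monoidal.μIso_inv, whiskerLeftIso_hom, Iso.app_hom]
      simp only [MonoidalCategory.whiskerLeft_comp, Category.assoc, J.map_comp]
      rw [Functor.Monoidal.μ_δ_assoc, Functor.Monoidal.μ_δ_assoc]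
    _ = δ J M (U.obj R) ▷ J.obj (U.obj A) ≫ (α_ _ _ _).hom ≫ J.obj M ◁ ((τ.hom.app R ⊗ₘ τ.hom.app A) ≫
          μ U₁ (J₀.obj R) (J₀.obj A) ≫ U₁.map (μ J₀ R A ≫ J₀.map e)) := by
      rw [h1, reassoc_of% h2, U₁.map_comp]
    _ = _ := by
      simp only [κ, tw, Iso.trans_hom, Iso.symm_hom, Functor.Monoidal.μIso_inv, whiskerLeftIso_hom, Iso.app_hom,
        tensorHom_def, comp_whiskerRight, MonoidalCategory.whiskerLeft_comp, Category.assoc]
      simp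

include τ in
/-- Bijectivity after restriction. `c` is the comparison map into an internal Hom pair. -/
theorem bij_of_restrict {A R L : C₀} {e : R ⊗ A ⟶ L} {R' : C} {e' : R' ⊗ U.obj A ⟶ M ⊗ U.obj L}
    (h' : IsHomPair (J.obj (U.obj A)) (J.obj R') (J.obj (M ⊗ U.obj L)) (μ J R' (U.obj A) ≫ J.map e'))
    (c : M ⊗ U.obj R ⟶ R') (hc : c ▷ U.obj A ≫ e' = tw U M e) (E : D)
    (h : Function.Bijective fun x : E ⟶ J.obj M ⊗ U₁.obj (J₀.obj R) =>
      x ▷ U₁.obj (J₀.obj A) ≫ tw U₁ (J.obj M) (μ J₀ R A ≫ J₀.map e)) :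
    Function.Bijective fun x : E ⟶ J.obj (M ⊗ U.obj R) => x ≫ J.map c := by
  have h1 : ∀ x : E ⟶ J.obj (M ⊗ U.obj R), (x ≫ J.map c) ▷ J.obj (U.obj A) ≫ μ J R' (U.obj A) ≫ J.map e' =
      (E ◁ τ.hom.app A ≫ (x ≫ (κ U M U₁ J₀ J τ R).hom) ▷ U₁.obj (J₀.obj A) ≫
        tw U₁ (J.obj M) (μ J₀ R A ≫ J₀.map e)) ≫ (κ U M U₁ J₀ J τ L).inv := by
    intro x
    rw [← cancel_mono (κ U M U₁ J₀ J τ L).hom]
    simp only [Category.assoc, Iso.inv_hom_id, Category.comp_id]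
    rw [comp_whiskerRight, Category.assoc, μ_natural_left_assoc, ← J.map_comp_assoc, hc, map_tw]
    rw [tensorHom_def', comp_whiskerRight]
    simp [whisker_exchange_assoc]
  have h2 : (fun x : E ⟶ J.obj R' => x ▷ J.obj (U.obj A) ≫ μ J R' (U.obj A) ≫ J.map e') ∘
      (fun x : E ⟶ J.obj (M ⊗ U.obj R) => x ≫ J.map c) =
      (fun z => z ≫ (κ U M U₁ J₀ J τ L).inv) ∘ (fun z => E ◁ τ.hom.app A ≫ z) ∘
        (fun x : E ⟶ J.obj M ⊗ U₁.obj (J₀.obj R) =>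
          x ▷ U₁.obj (J₀.obj A) ≫ tw U₁ (J.obj M) (μ J₀ R A ≫ J₀.map e)) ∘
        (fun x => x ≫ (κ U M U₁ J₀ J τ R).hom) := funext fun x => h1 x
  refine (Function.Bijective.of_comp_iff' (h' E) _).1 ?_
  rw [h2]
  exact (bij_comp_iso _).comp ((bij_iso_comp _).comp (h.comp (bij_comp_iso _)))

end Local

end Groth.Agent.Dual.H356.AbsTw
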