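import Groth.Agent.Dual.H356.UnitCone
import Groth.Agent.Dual.H353.Arrow
import Groth.Agent.CohqA.AffineBaseChange
import Groth.Agent.PerfC.PullRestrict

/-!
# The structure pair of a closed immersion is compatible with flat base change
-/

set_option autoImplicit false
universe u

open CategoryTheory CategoryTheory.Limits AlgebraicGeometry MonoidalCategory
attribute [local instance] HasDerivedCategory.standard

open scoped Groth.Agent.Dcoh.MonCat Groth.Agent.Dcoh.ModD Groth.Agent.Dcoh.MonPull Groth.Agent.Dual.H356.LpMon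

namespace Groth.Agent.Dual.H356.BCUnit

open Groth.Agent.Dcoh Groth.Agent.Dcoh.MonCx Groth.Agent.Dcoh.MonD Groth.Agent.Dcoh.ModD Groth.Agent.Dcoh.DerAdj
  Groth.Agent.Dcoh.DerPull AbsPair AbsStr LpMon DProj NegCone UnitCone Functor.LaxMonoidal Functor.OplaxMonoidal

section Abs

universe v

variable {C : Type u} [Category.{v} C] {I A B : C}

lemma isIso_of_unit (e : I ⟶ A) (e' : I ⟶ B) (w : B ⟶ A) (hw : e' ≫ w = e) (κ : B ≅ A)
    (h1 : ∀ x : I ⟶ A, ∃ s : A ⟶ A, e ≫ s = x) (h2 : ∀ a b : A ⟶ A, e ≫ a = e ≫ b → a = b)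
    (h3 : ∀ a b : B ⟶ B, e' ≫ a = e' ≫ b → a = b) : IsIso w := by
  obtain ⟨s, hs⟩ := h1 (e' ≫ κ.hom)
  have ht : e ≫ s ≫ κ.inv = e' := by
    rw [reassoc_of% hs]
    simp
  refine ⟨s ≫ κ.inv, h3 _ _ ?_, h2 _ _ ?_⟩
  · rw [reassoc_of% hw, ht, Category.comp_id]
  · simp only [Category.assoc] at ht ⊢
    rw [reassoc_of% ht, hw, Category.comp_id]

end Abs

section AbsBC

universe v v' u' v₁ v₂ u₁ u₂

variable {C₀ : Type u₁} [Category.{v₁} C₀] [MonoidalCategory C₀] {D₀ : Type u₂} [Category.{v₂} D₀]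
  [MonoidalCategory D₀] (H₀ : C₀ ⥤ D₀) [H₀.Monoidal] {G₀ : D₀ ⥤ C₀} (adj₀ : H₀ ⊣ G₀)
  {C : Type u} [Category.{v} C] [MonoidalCategory C] {D : Type u'} [Category.{v'} D] [MonoidalCategory D]
  (H : C ⥤ D) [H.Monoidal] {G : D ⥤ C} (adj : H ⊣ G) (U : C₀ ⥤ C) [U.Monoidal] (V : D₀ ⥤ D) [V.Monoidal]
  (σ : U ⋙ H ≅ H₀ ⋙ V) [σ.hom.IsMonoidal]

/-- The comparison `U (G₀ 1) ⟶ G 1`. -/
def bcw : U.obj (G₀.obj (𝟙_ D₀)) ⟶ G.obj (𝟙_ D) :=
  adj.homEquiv _ _ (bcStr H₀ (adj₀.counit.app (𝟙_ D₀)) H U V σ)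

lemma unit_bcw : ε U ≫ U.map (adj₀.homEquiv _ _ (η H₀)) ≫ bcw H₀ adj₀ H adj U V σ = adj.homEquiv _ _ (η H) := by
  rw [bcw, ← Adjunction.homEquiv_naturality_left, ← Adjunction.homEquiv_naturality_left]
  congr 1
  have h1 : H.map (U.map (adj₀.homEquiv _ _ (η H₀))) ≫ σ.hom.app (G₀.obj (𝟙_ D₀)) =
      σ.hom.app (𝟙_ C₀) ≫ V.map (H₀.map (adj₀.homEquiv _ _ (η H₀))) := σ.hom.naturality _
  have h2 : H₀.map (adj₀.homEquiv _ _ (η H₀)) ≫ adj₀.counit.app (𝟙_ D₀) = η H₀ :=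
    (adj₀.homEquiv_counit _ _ _).symm.trans (Equiv.symm_apply_apply _ _)
  have h3 := NatTrans.IsMonoidal.unit (τ := σ.hom)
  rw [Functor.LaxMonoidal.comp_ε, Functor.LaxMonoidal.comp_ε, Category.assoc] at h3
  rw [bcStr, reassoc_of% h1, ← V.map_comp_assoc, h2, ← cancel_epi (ε H), reassoc_of% h3]
  simp

lemma exists_lift (x : 𝟙_ C ⟶ G.obj (𝟙_ D)) : ∃ s : G.obj (𝟙_ D) ⟶ G.obj (𝟙_ D), adj.homEquiv _ _ (η H) ≫ s = x := by
  refine ⟨G.map (ε H ≫ (adj.homEquiv _ _).symm x), ?_⟩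
  rw [← Adjunction.homEquiv_naturality_right, Functor.Monoidal.η_ε_assoc, Equiv.apply_symm_apply]

end AbsBC

end Groth.Agent.Dual.H356.BCUnit
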