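import Groth.Agent.Dual.H356.TBij
import Groth.Agent.Dcoh.LTXMon305
import Groth.Agent.PerfC.RHomBnd556
import Groth.Agent.Dcoh.DerPull2
import Groth.Agent.PerfB.PullData

/-!
# Exactness and amplitude of `⊗` and `Lf^*`
-/

set_option autoImplicit false
universe u

open CategoryTheory CategoryTheory.Limits AlgebraicGeometry MonoidalCategory
attribute [local instance] HasDerivedCategory.standard

open scoped Groth.Agent.Dcoh.MonCat Groth.Agent.Dcoh.ModD

namespace Groth.Agent.Dual.H356.TensX

open Groth.Agent.Dcoh Groth.Agent.Dual.H356.TBij Groth.Agent.PerfC Groth.Agent.PerfC.DTens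

variable (X : Scheme.{u})

lemma exact_of_isTriang {X Y : Scheme.{u}} {F : DCoh.D X ⥤ DCoh.D Y} (h : IsoLocus.IsTriang F) : Exact F := by
  obtain ⟨h1, h2⟩ := h
  exact ⟨F, h1, h2, ⟨Iso.refl _⟩⟩

/-- `⊗` is exact in both variables and right t-exact. -/
theorem tensT : TensT X.Modules where
  left E := by
    obtain ⟨e⟩ := LTXMon305.nonempty_LTXobj E
    exact (exact_of_isTriang (isTriang_LTX_obj E)).of_iso e.symm
  right E := by
    have := hasLTensorCx (DerivedCategory.Q.objPreimage E)
    have h1 : Exact (tensorRight (DerivedCategory.Q.obj (DerivedCategory.Q.objPreimage E))) :=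
      (exact_of_isTriang (isTriang_LTensorCx (DerivedCategory.Q.objPreimage E))).of_iso
        (ModTens.LTensorCxIso (DerivedCategory.Q.objPreimage E)).symm
    exact h1.of_iso ((tensoringRight (DCoh.D X)).mapIso (DerivedCategory.Q.objObjPreimageIso E)).symm
  isLE K L a b hK hL := by
    obtain ⟨e⟩ := LTXMon305.nonempty_LTXobj K
    have := RHomBnd556.isLE_LTX K L a b
    have h : (((LTX X).obj K).obj L).IsLE (a + b) := this
    have h' : (((LTX X).obj K).obj L) ≅ K ⊗ L := e.app L
    exact ⟨(DerivedCategory.TStructure.t.isLE_of_iso h' (a + b)).le⟩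

variable {X} {Y : Scheme.{u}} (f : X ⟶ Y) [DCoh.HasLpull f]

lemma exact_lpull : Exact (DCoh.Lpull f) := by
  let _ := DerPull.lpullCommShift f
  have := DerPull.lpull_isTriangulated f
  exact Exact.of_isTriangulated _

/-- `Lf^*` is right t-exact. -/
lemma isLE_lpull (K : DCoh.D Y) (n : ℤ) (hK : K.IsLE n) : ((DCoh.Lpull f).obj K).IsLE n :=
  RelFlatLpull.isLE_lpull (PerfB.PullData.pullData f) K n

end Groth.Agent.Dual.H356.TensX
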