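import Groth.Agent.Dual.H356.BCUnit
import Groth.Agent.PerfB.FlatPull
import Groth.Agent.Dual.H356.TensX
import Groth.Agent.Fdesc.StructMod

/-!
# The structure pair of a closed immersion is compatible with flat base change: schemes
-/

set_option autoImplicit false
universe u

open CategoryTheory CategoryTheory.Limits AlgebraicGeometry MonoidalCategory
attribute [local instance] HasDerivedCategory.standard

open scoped Groth.Agent.Dcoh.MonCat Groth.Agent.Dcoh.ModD Groth.Agent.Dcoh.MonPull Groth.Agent.Dual.H356.LpMon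

namespace Groth.Agent.Dual.H356.BCUnitX

open Groth.Agent.Dcoh Groth.Agent.Dcoh.MonCx Groth.Agent.Dcoh.MonD Groth.Agent.Dcoh.ModD Groth.Agent.Dcoh.DerAdj
  Groth.Agent.Dcoh.DerPull AbsPair AbsStr LpMon DProj NegCone UnitCone BCUnit Functor.LaxMonoidal
  Functor.OplaxMonoidal

variable {T W X S : Scheme.{u}} {v : T ⟶ X} {i : T ⟶ W} {i₀ : X ⟶ S} {u : W ⟶ S}

lemma nonempty_push_unit (i : T ⟶ W) [PreservesFiniteLimits (Scheme.Modules.pushforward i)]
    [PreservesFiniteColimits (Scheme.Modules.pushforward i)] :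
    Nonempty ((Dual3.pushD i).obj (𝟙_ (DCoh.D T)) ≅ (DerivedCategory.singleFunctor W.Modules 0).obj
      ((Scheme.Modules.pushforward i).obj (Coh.structureModule T))) :=
  ⟨(Dual3.pushD i).mapIso (DualX.unitIso T).symm ≪≫
    (Dual.H353.Arrow.pushSingle i 0).app (Coh.structureModule T)⟩

lemma isGE_push_unit (i : T ⟶ W) [PreservesFiniteLimits (Scheme.Modules.pushforward i)]
    [PreservesFiniteColimits (Scheme.Modules.pushforward i)] :
    ((Dual3.pushD i).obj (𝟙_ (DCoh.D T))).IsGE 0 := by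
  obtain ⟨e⟩ := nonempty_push_unit i
  exact DerivedCategory.TStructure.t.isGE_of_iso e.symm 0

variable (hpb : IsPullback v i i₀ u) [IsClosedImmersion i₀] [IsClosedImmersion i] [Flat u]
  [PreservesFiniteLimits (Scheme.Modules.pushforward i)]
  [PreservesFiniteColimits (Scheme.Modules.pushforward i)]
  [PreservesFiniteLimits (Scheme.Modules.pushforward i₀)]
  [PreservesFiniteColimits (Scheme.Modules.pushforward i₀)]
  [DCoh.HasLpull i] [DCoh.HasLpull i₀] [DCoh.HasLpull u] [DCoh.HasLpull v]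

omit [IsClosedImmersion i] [DCoh.HasLpull i] [DCoh.HasLpull i₀] [DCoh.HasLpull v] in
include hpb in
lemma nonempty_κ : Nonempty ((DCoh.Lpull u).obj ((Dual3.pushD i₀).obj (𝟙_ (DCoh.D X))) ≅
    (Dual3.pushD i).obj (𝟙_ (DCoh.D T))) := by
  obtain ⟨e⟩ := nonempty_push_unit i
  obtain ⟨e₀⟩ := nonempty_push_unit i₀
  have hq : (Coh.structureModule X).IsQuasicoherent := Fdesc.StructMod.isQCoh_structureModule X
  obtain ⟨b⟩ := CohqA.AffineBaseChange.nonempty_iso hpb (Coh.structureModule X)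
  exact ⟨(DCoh.Lpull u).mapIso e₀ ≪≫ (PerfC.LpullFlat.lpullIso u).app _ ≪≫
    ((Scheme.Modules.pullback u).mapDerivedCategorySingleFunctor 0).app _ ≪≫
    (DerivedCategory.singleFunctor W.Modules 0).mapIso (b ≪≫
      (Scheme.Modules.pushforward i).mapIso (PerfC.PullRestrict.pullbackUnit v)) ≪≫ e.symm⟩

include hpb in
theorem isIso_bcw : IsIso (bcw (DCoh.Lpull i₀) (padjS i₀) (DCoh.Lpull i) (padjS i) (DCoh.Lpull u) (DCoh.Lpull v)
    (lpullSq u hpb.w.symm)) := by
  have := isMonoidal_lpullSq u hpb.w.symm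
  obtain ⟨κ⟩ := nonempty_κ hpb
  have hA := isGE_push_unit i
  have hB : ((DCoh.Lpull u).obj ((Dual3.pushD i₀).obj (𝟙_ (DCoh.D X)))).IsGE 0 :=
    DerivedCategory.TStructure.t.isGE_of_iso κ.symm 0
  have h1 := negCone_unitArrow i
  have h2 : NegCone (ε (DCoh.Lpull u) ≫ (DCoh.Lpull u).map (unitArrow i₀)) :=
    ((negCone_unitArrow i₀).map (TensX.exact_lpull u) (fun Z n hZ => TensX.isLE_lpull u Z n hZ)).iso_comp _
  refine isIso_of_unit (unitArrow i) (ε (DCoh.Lpull u) ≫ (DCoh.Lpull u).map (unitArrow i₀)) _ ?_ κ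
    (fun x => exists_lift (DCoh.Lpull i) (padjS i) x) (fun a b h => h1.injective hA h)
    (fun a b h => h2.injective hB h)
  rw [Category.assoc]
  exact unit_bcw (DCoh.Lpull i₀) (padjS i₀) (DCoh.Lpull i) (padjS i) (DCoh.Lpull u) (DCoh.Lpull v)
    (lpullSq u hpb.w.symm)

include hpb in
/-- The base change of the structure pair of `i₀` is a structure pair. -/
theorem isStr_bcStr : IsStr (DCoh.Lpull i) (bcStr (DCoh.Lpull i₀) ((padjS i₀).counit.app (𝟙_ (DCoh.D X)))
    (DCoh.Lpull i) (DCoh.Lpull u) (DCoh.Lpull v) (lpullSq u hpb.w.symm)) := by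
  have := isIso_bcw hpb
  exact isStr_of_iso (isStr_counit i) (bcw (DCoh.Lpull i₀) (padjS i₀) (DCoh.Lpull i) (padjS i) (DCoh.Lpull u)
    (DCoh.Lpull v) (lpullSq u hpb.w.symm)) _ (homEquiv_counit' (padjS i) _)

end Groth.Agent.Dual.H356.BCUnitX
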