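import Groth.Agent.Dcoh.MonMap
import Mathlib.CategoryTheory.Monoidal.NaturalTransformation

/-!
# Monoidal natural transformations between functors on complexes

* `isMonoidal_of_whiskerLeft`: a natural transformation is monoidal if it is so after precomposition with an
  essentially surjective monoidal functor;
* `isMonoidal_mapCx`, `isMonoidal_mapCx_comp`: a monoidal natural transformation between monoidal functors on abelian
  categories induces a monoidal natural transformation between the functors on complexes.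
-/

set_option autoImplicit false

open CategoryTheory Limits MonoidalCategory

namespace Groth.Agent.Dual.H356.CxMon

open Functor.LaxMonoidal Functor.OplaxMonoidal

universe v₁ v₂ v₃ u₁ u₂ u₃

section Gen

variable {C : Type u₁} [Category.{v₁} C] [MonoidalCategory C] {D : Type u₂} [Category.{v₂} D] [MonoidalCategory D]
  {E : Type u₃} [Category.{v₃} E] [MonoidalCategory E]
  (L : C ⥤ D) [L.Monoidal] [L.EssSurj] {F G : D ⥤ E} [F.LaxMonoidal] [G.LaxMonoidal] (τ : F ⟶ G)

theorem isMonoidal_of_whiskerLeft (h : NatTrans.IsMonoidal (Functor.whiskerLeft L τ)) : NatTrans.IsMonoidal τ where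
  unit := by
    have h1 := h.unit
    rw [Functor.LaxMonoidal.comp_ε, Functor.LaxMonoidal.comp_ε, Functor.whiskerLeft_app, Category.assoc,
      τ.naturality] at h1
    rw [← cancel_mono (G.map (ε L)), Category.assoc]
    exact h1
  tensor X Y := by
    have h0 : ∀ A B : C, μ F (L.obj A) (L.obj B) ≫ τ.app (L.obj A ⊗ L.obj B) =
        (τ.app (L.obj A) ⊗ₘ τ.app (L.obj B)) ≫ μ G (L.obj A) (L.obj B) := by
      intro A B
      have h1 := h.tensor A B
      rw [Functor.LaxMonoidal.comp_μ, Functor.LaxMonoidal.comp_μ, Functor.whiskerLeft_app, Functor.whiskerLeft_app,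
        Functor.whiskerLeft_app, Category.assoc, τ.naturality] at h1
      rw [← cancel_mono (G.map (μ L A B)), Category.assoc, Category.assoc]
      exact h1
    let x := L.objObjPreimageIso X
    let y := L.objObjPreimageIso Y
    have h1 := h0 (L.objPreimage X) (L.objPreimage Y)
    rw [← cancel_epi (F.map x.hom ⊗ₘ F.map y.hom), μ_natural_assoc, τ.naturality, reassoc_of% h1,
      ← μ_natural, tensorHom_comp_tensorHom_assoc, tensorHom_comp_tensorHom_assoc, τ.naturality, τ.naturality]

end Gen

section Cx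

open Groth.Agent.Dcoh.MonCx Groth.Agent.Dcoh.MonMap

variable {A : Type u₁} [Category.{v₁} A] [Preadditive A] [MonoidalCategory A] [TensorGood A]
  {B : Type u₂} [Category.{v₂} B] [Preadditive B] [MonoidalCategory B] [TensorGood B]
  {C : Type u₃} [Category.{v₃} C] [Preadditive C] [MonoidalCategory C] [TensorGood C]

variable (F : A ⥤ B) [F.Additive] [F.Monoidal] [PreservesColimitsOfSize.{0, 0} F]

@[reassoc]
lemma ιT_μcx (K L : CochainComplex A ℤ) (p q n : ℤ) (h : p + q = n) :
    ιT ((mapCx F).obj K) ((mapCx F).obj L) p q n h ≫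
      (@μ _ _ _ _ _ _ (mapCx F) (mapCxMonoidal F).toLaxMonoidal K L).f n =
      μ F (K.X p) (L.X q) ≫ F.map (ιT K L p q n h) :=
  ιT_μ F K L p q n h

/-- A monoidal natural transformation induces a monoidal natural transformation on complexes. -/
theorem isMonoidal_mapCx {F F' : A ⥤ B} [F.Additive] [F.Monoidal] [PreservesColimitsOfSize.{0, 0} F]
    [F'.Additive] [F'.Monoidal] [PreservesColimitsOfSize.{0, 0} F'] (τ : F ⟶ F') [NatTrans.IsMonoidal τ] :
    letI := mapCxMonoidal F
    letI := mapCxMonoidal F'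
    NatTrans.IsMonoidal (NatTrans.mapHomologicalComplex τ (ComplexShape.up ℤ)) := by
  let _ := mapCxMonoidal F
  let _ := mapCxMonoidal F'
  refine ⟨?_, fun K L => ?_⟩
  · ext n
    by_cases hn : n = 0
    · subst hn
      have h1 := ε_f_zero F
      have h2 := ε_f_zero F'
      rw [← cancel_epi (HomologicalComplex.singleObjXSelf (ComplexShape.up ℤ) 0 (𝟙_ B)).inv]
      rw [HomologicalComplex.comp_f]
      refine ((reassoc_of% h1) _).trans ?_
      refine Eq.trans ?_ h2.symm
      have h3 : F.map (HomologicalComplex.singleObjXSelf (ComplexShape.up ℤ) 0 (𝟙_ A)).inv ≫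
          τ.app _ = τ.app _ ≫ F'.map (HomologicalComplex.singleObjXSelf (ComplexShape.up ℤ) 0 (𝟙_ A)).inv :=
        τ.naturality _
      have h4 := NatTrans.IsMonoidal.unit (τ := τ)
      refine (Category.assoc _ _ _).trans ?_
      refine (congrArg (fun t => ε F ≫ t) h3).trans ?_
      exact (reassoc_of% h4) _
    · exact (isZero_unit_X n hn).eq_of_src _ _
  · ext n
    refine hom_ext fun p q h => ?_
    have h1 := ιT_μ F K L p q n h
    have h2 := ιT_μ F' K L p q n h
    have h3 : ιT ((mapCx F).obj K) ((mapCx F).obj L) p q n h ≫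
        ((NatTrans.mapHomologicalComplex τ (ComplexShape.up ℤ)).app K ⊗ₘ
          (NatTrans.mapHomologicalComplex τ (ComplexShape.up ℤ)).app L).f n =
        (τ.app (K.X p) ⊗ₘ τ.app (L.X q)) ≫ ιT ((mapCx F').obj K) ((mapCx F').obj L) p q n h :=
      ιT_tensorHom _ _ p q n h
    have h4 := NatTrans.IsMonoidal.tensor (τ := τ) (K.X p) (L.X q)
    have h5 : F.map (ιT K L p q n h) ≫ τ.app ((K ⊗ L).X n) = τ.app _ ≫ F'.map (ιT K L p q n h) :=
      τ.naturality _
    rw [HomologicalComplex.comp_f, HomologicalComplex.comp_f]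
    refine ((reassoc_of% h1) _).trans ?_
    refine Eq.trans ?_ ((reassoc_of% h3) _).symm
    refine Eq.trans ?_ (Category.assoc _ _ _).symm
    refine Eq.trans ?_ (congrArg (fun t => (τ.app (K.X p) ⊗ₘ τ.app (L.X q)) ≫ t) h2).symm
    refine (Category.assoc _ _ _).trans ?_
    refine (congrArg (fun t => μ F (K.X p) (L.X q) ≫ t) h5).trans ?_
    exact (reassoc_of% h4) _

/-- The transformation on complexes induced by `F ⋙ G ⟶ H`. -/
noncomputable def compTrans (F : A ⥤ B) [F.Additive] (G : B ⥤ C) [G.Additive] (H : A ⥤ C) [H.Additive]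
    (τ : F ⋙ G ⟶ H) : mapCx F ⋙ mapCx G ⟶ mapCx H :=
  (Functor.mapHomologicalComplexCompIso (Iso.refl (F ⋙ G)) (ComplexShape.up ℤ)).hom ≫
    NatTrans.mapHomologicalComplex τ (ComplexShape.up ℤ)

omit [MonoidalCategory A] [TensorGood A] [MonoidalCategory B] [TensorGood B] [MonoidalCategory C] [TensorGood C] in
lemma compTrans_app_f (F : A ⥤ B) [F.Additive] (G : B ⥤ C) [G.Additive] (H : A ⥤ C) [H.Additive]
    (τ : F ⋙ G ⟶ H) (K : CochainComplex A ℤ) (n : ℤ) : ((compTrans F G H τ).app K).f n = τ.app (K.X n) := by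
  simp [compTrans, Functor.mapHomologicalComplexCompIso]
  exact Category.id_comp _

theorem isMonoidal_mapCx_comp (F : A ⥤ B) [F.Additive] [F.Monoidal] [PreservesColimitsOfSize.{0, 0} F]
    (G : B ⥤ C) [G.Additive] [G.Monoidal] [PreservesColimitsOfSize.{0, 0} G]
    (H : A ⥤ C) [H.Additive] [H.Monoidal] [PreservesColimitsOfSize.{0, 0} H]
    (τ : F ⋙ G ⟶ H) [NatTrans.IsMonoidal τ] :
    letI := mapCxMonoidal F
    letI := mapCxMonoidal G
    letI := mapCxMonoidal H
    NatTrans.IsMonoidal (compTrans F G H τ) := by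
  let _ := mapCxMonoidal F
  let _ := mapCxMonoidal G
  let _ := mapCxMonoidal H
  refine ⟨?_, fun K L => ?_⟩
  · ext n
    by_cases hn : n = 0
    · subst hn
      have h1 := ε_f_zero F
      have h2 := ε_f_zero G
      have h3 := ε_f_zero H
      rw [← cancel_epi (HomologicalComplex.singleObjXSelf (ComplexShape.up ℤ) 0 (𝟙_ C)).inv]
      refine Eq.trans ?_ h3.symm
      have e1 : (ε (mapCx F ⋙ mapCx G) ≫ (compTrans F G H τ).app (𝟙_ (CochainComplex A ℤ))).f 0 =
          (ε (mapCx G)).f 0 ≫ G.map ((ε (mapCx F)).f 0) ≫ τ.app ((𝟙_ (CochainComplex A ℤ)).X 0) := by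
        rw [HomologicalComplex.comp_f, compTrans_app_f, Functor.LaxMonoidal.comp_ε, HomologicalComplex.comp_f,
          Category.assoc]
        rfl
      rw [e1]
      refine ((reassoc_of% h2) _).trans ?_
      refine (Category.assoc _ _ _).trans ?_
      have e2 : G.map (HomologicalComplex.singleObjXSelf (ComplexShape.up ℤ) 0 (𝟙_ B)).inv ≫
          G.map ((ε (mapCx F)).f 0) = G.map (ε F) ≫ G.map (F.map
            (HomologicalComplex.singleObjXSelf (ComplexShape.up ℤ) 0 (𝟙_ A)).inv) := by
        rw [← G.map_comp, ← G.map_comp]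
        exact congrArg G.map h1
      have e3 : G.map (F.map (HomologicalComplex.singleObjXSelf (ComplexShape.up ℤ) 0 (𝟙_ A)).inv) ≫
          τ.app _ = τ.app _ ≫ H.map (HomologicalComplex.singleObjXSelf (ComplexShape.up ℤ) 0 (𝟙_ A)).inv :=
        τ.naturality _
      have h4 := NatTrans.IsMonoidal.unit (τ := τ)
      rw [Functor.LaxMonoidal.comp_ε, Category.assoc] at h4
      refine (congrArg (fun t => ε G ≫ t) ((reassoc_of% e2) _)).trans ?_
      refine (congrArg (fun t => ε G ≫ t) (Category.assoc _ _ _)).trans ?_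
      refine (congrArg (fun t => ε G ≫ G.map (ε F) ≫ t) e3).trans ?_
      exact (reassoc_of% h4) _
    · exact (isZero_unit_X n hn).eq_of_src _ _
  · ext n
    refine hom_ext fun p q h => ?_
    have h1 := ιT_μ F K L p q n h
    have h2 := ιT_μ G ((mapCx F).obj K) ((mapCx F).obj L) p q n h
    have h3 := ιT_μ H K L p q n h
    have h4 : ιT ((mapCx G).obj ((mapCx F).obj K)) ((mapCx G).obj ((mapCx F).obj L)) p q n h ≫
        ((compTrans F G H τ).app K ⊗ₘ (compTrans F G H τ).app L).f n =
        (τ.app (K.X p) ⊗ₘ τ.app (L.X q)) ≫ ιT ((mapCx H).obj K) ((mapCx H).obj L) p q n h := by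
      have h4' := ιT_tensorHom ((compTrans F G H τ).app K) ((compTrans F G H τ).app L) p q n h
      rw [compTrans_app_f, compTrans_app_f] at h4'
      exact h4'
    have h5 := NatTrans.IsMonoidal.tensor (τ := τ) (K.X p) (L.X q)
    rw [Functor.LaxMonoidal.comp_μ, Category.assoc] at h5
    have h6 : G.map (F.map (ιT K L p q n h)) ≫ τ.app ((K ⊗ L).X n) = τ.app _ ≫ H.map (ιT K L p q n h) :=
      τ.naturality _
    have e1 : (μ (mapCx F ⋙ mapCx G) K L ≫ (compTrans F G H τ).app (K ⊗ L)).f n =
        (μ (mapCx G) ((mapCx F).obj K) ((mapCx F).obj L)).f n ≫ G.map ((μ (mapCx F) K L).f n) ≫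
          τ.app ((K ⊗ L).X n) := by
      rw [HomologicalComplex.comp_f, compTrans_app_f, Functor.LaxMonoidal.comp_μ, HomologicalComplex.comp_f,
        Category.assoc]
      rfl
    rw [e1]
    refine ((reassoc_of% h2) _).trans ?_
    refine (Category.assoc _ _ _).trans ?_
    have e2 : G.map (ιT ((mapCx F).obj K) ((mapCx F).obj L) p q n h) ≫ G.map ((μ (mapCx F) K L).f n) =
        G.map (μ F (K.X p) (L.X q)) ≫ G.map (F.map (ιT K L p q n h)) := by
      rw [← G.map_comp, ← G.map_comp]
      exact congrArg G.map h1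
    rw [HomologicalComplex.comp_f]
    refine (congrArg (fun t => μ G _ _ ≫ t) ((reassoc_of% e2) _)).trans ?_
    refine (congrArg (fun t => μ G _ _ ≫ t) (Category.assoc _ _ _)).trans ?_
    refine (congrArg (fun t => μ G _ _ ≫ G.map (μ F (K.X p) (L.X q)) ≫ t) h6).trans ?_
    refine Eq.trans ?_ ((reassoc_of% h4) _).symm
    refine Eq.trans ?_ (Category.assoc _ _ _).symm
    refine Eq.trans ?_ (congrArg (fun t => (τ.app (K.X p) ⊗ₘ τ.app (L.X q)) ≫ t) h3).symm
    exact (reassoc_of% h5) _

end Cx

end Groth.Agent.Dual.H356.CxMon
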