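import Groth.Agent.Dual.H356.AbsPair
import Groth.Agent.Dual.H356.CxMon
import Groth.Agent.Dcoh.DerAdj

/-!
# The projection formula on complexes
-/

set_option autoImplicit false

open CategoryTheory Limits MonoidalCategory

namespace Groth.Agent.Dual.H356.CxProj

open Functor.LaxMonoidal Functor.OplaxMonoidal AbsPair
open Groth.Agent.Dcoh.MonCx Groth.Agent.Dcoh.MonMap Groth.Agent.Dcoh.DerAdj

universe v₁ v₂ u₁ u₂

variable {A : Type u₁} [Category.{v₁} A] [Preadditive A] [MonoidalCategory A] [TensorGood A]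
  {B : Type u₂} [Category.{v₂} B] [Preadditive B] [MonoidalCategory B] [TensorGood B]

/-- The tensor product with a complex concentrated in degree `0`. -/
lemma isIso_ιT (K N : CochainComplex A ℤ) (hN : ∀ q, q ≠ 0 → IsZero (N.X q)) (n : ℤ) :
    IsIso (ιT K N n 0 n (add_zero n)) := by
  let φ : ∀ (p q : ℤ) (_ : p + q = n), K.X p ⊗ N.X q ⟶ K.X n ⊗ N.X 0 := fun p q h =>
    if hq : q = 0 then eqToHom (by
      subst hq
      obtain rfl : p = n := by omega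
      rfl) else 0
  refine ⟨desc φ, ?_, hom_ext fun p q h => ?_⟩
  · rw [ιT_desc]
    simp [φ]
  · by_cases hq : q = 0
    · subst hq
      obtain rfl : p = n := by omega
      rw [ιT_desc_assoc]
      simp [φ]
    · exact (Functor.map_isZero (tensorLeft (K.X p)) (hN q hq)).eq_of_src _ _

lemma act_comp {C : Type u₁} [Category.{v₁} C] [MonoidalCategory C] {D : Type u₂} [Category.{v₂} D]
    [MonoidalCategory D] (H : C ⥤ D) [H.Monoidal] {A A' : C} (w : A' ⟶ A) (c : H.obj A ⟶ 𝟙_ D) (E : C) :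
    act H (H.map w ≫ c) E = H.map (E ◁ w) ≫ act H c E := by
  rw [act, act, MonoidalCategory.whiskerLeft_comp, Category.assoc, δ_natural_right_assoc]

lemma aux1 {C : Type*} [Category* C] {x₁ x₂ x₃ x₄ x₅ x₆ x₇ x₈ : C} (a : x₁ ⟶ x₂) (d : x₂ ⟶ x₃) (dm : x₁ ⟶ x₄)
    (i1 : x₄ ⟶ x₃) (c : x₃ ⟶ x₅) (w : x₄ ⟶ x₆) (i2 : x₆ ⟶ x₅) (r : x₅ ⟶ x₇) (w' : x₆ ⟶ x₈) (ρ : x₈ ⟶ x₇)
    (ww : x₄ ⟶ x₈) (h1 : a ≫ d = dm ≫ i1) (h2 : i1 ≫ c = w ≫ i2) (h3 : i2 ≫ r = w' ≫ ρ) (h4 : ww = w ≫ w') :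
    a ≫ d ≫ c ≫ r = dm ≫ ww ≫ ρ := by
  rw [reassoc_of% h1, reassoc_of% h2, h3, h4, Category.assoc]

lemma aux2 {C : Type*} [Category* C] {x₁ x₂ x₃ x₄ x₅ x₆ x₇ : C} (i : x₁ ⟶ x₂) (u : x₂ ⟶ x₃) (u' : x₁ ⟶ x₄)
    (gi : x₄ ⟶ x₃) (ga : x₃ ⟶ x₅) (gw : x₄ ⟶ x₆) (gb : x₆ ⟶ x₅) (w : x₁ ⟶ x₇) (u'' : x₇ ⟶ x₆)
    (h1 : i ≫ u = u' ≫ gi) (h2 : gi ≫ ga = gw ≫ gb) (h3 : w ≫ u'' = u' ≫ gw) :
    i ≫ u ≫ ga = w ≫ u'' ≫ gb := by
  rw [reassoc_of% h1, h2, reassoc_of% h3]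

variable (F : A ⥤ B) [F.Additive] [F.Monoidal] [PreservesColimitsOfSize.{0, 0} F] (G : B ⥤ A) [G.Additive]
  (adj : F ⊣ G)

/-- The counit on complexes. -/
noncomputable abbrev cntCx : (mapCx F).obj ((mapCx G).obj (𝟙_ (CochainComplex B ℤ))) ⟶ 𝟙_ (CochainComplex B ℤ) :=
  (adjCx adj (ComplexShape.up ℤ)).counit.app (𝟙_ (CochainComplex B ℤ))

/-- The projection formula on complexes. -/
noncomputable abbrev cxπ (K : CochainComplex A ℤ) :
    K ⊗ (mapCx G).obj (𝟙_ (CochainComplex B ℤ)) ⟶ (mapCx G).obj ((mapCx F).obj K) :=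
  letI := mapCxMonoidal F
  π (H := mapCx F) (cntCx F G adj) (adjCx adj (ComplexShape.up ℤ)) K

lemma cx_homEquiv_act {P : CochainComplex A ℤ} (p : P ⟶ (mapCx G).obj (𝟙_ (CochainComplex B ℤ)))
    (K : CochainComplex A ℤ) :
    letI := mapCxMonoidal F
    (adjCx adj (ComplexShape.up ℤ)).homEquiv _ _ (act (mapCx F)
      (((adjCx adj (ComplexShape.up ℤ)).homEquiv _ _).symm p) K) = (K ◁ p) ≫ cxπ F G adj K := by
  let _ := mapCxMonoidal F
  rw [Adjunction.homEquiv_counit, act_comp, Adjunction.homEquiv_naturality_left]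
  rfl

/-- The projection formula in `A`. -/
noncomputable abbrev aπ (E : A) : E ⊗ G.obj (𝟙_ B) ⟶ G.obj (F.obj E) := 
  π (H := F) (A := G.obj (𝟙_ B)) (adj.counit.app (𝟙_ B)) adj E

lemma map_ιT_δ (K L : CochainComplex A ℤ) (p q n : ℤ) (h : p + q = n) :
    letI := mapCxMonoidal F
    F.map (ιT K L p q n h) ≫ (δ (mapCx F) K L).f n = δ F (K.X p) (L.X q) ≫
      ιT ((mapCx F).obj K) ((mapCx F).obj L) p q n h :=
  map_ιT_muIso_inv F K L p q n h

lemma ιT_cxπ (K : CochainComplex A ℤ) (n : ℤ) :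
    ιT K ((mapCx G).obj (𝟙_ (CochainComplex B ℤ))) n 0 n (add_zero n) ≫ (cxπ F G adj K).f n =
      (K.X n ◁ G.map (HomologicalComplex.singleObjXSelf (ComplexShape.up ℤ) 0 (𝟙_ B)).hom) ≫
        aπ F G adj (K.X n) := by
  let _ := mapCxMonoidal F
  let N := (mapCx G).obj (𝟙_ (CochainComplex B ℤ))
  let s := (HomologicalComplex.singleObjXSelf (ComplexShape.up ℤ) 0 (𝟙_ B))
  have e0 : (cxπ F G adj K).f n = adj.unit.app ((K ⊗ N).X n) ≫ G.map ((act (mapCx F) (cntCx F G adj) K).f n) := by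
    rfl
  have e1 : F.map (ιT K N n 0 n (add_zero n)) ≫ (act (mapCx F) (cntCx F G adj) K).f n =
      δ F (K.X n) (N.X 0) ≫ F.obj (K.X n) ◁ (adj.counit.app _ ≫ s.hom) ≫ (ρ_ (F.obj (K.X n))).hom := by
    have h1 := map_ιT_δ F K N n 0 n (add_zero n)
    have h2 : ιT ((mapCx F).obj K) ((mapCx F).obj N) n 0 n (add_zero n) ≫
        ((mapCx F).obj K ◁ cntCx F G adj).f n = F.obj (K.X n) ◁ (adj.counit.app _) ≫
          ιT ((mapCx F).obj K) (𝟙_ (CochainComplex B ℤ)) n 0 n (add_zero n) :=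
      ιT_whiskerLeft ((mapCx F).obj K) (cntCx F G adj) n 0 n (add_zero n)
    have h3 : ιT ((mapCx F).obj K) (𝟙_ (CochainComplex B ℤ)) n 0 n (add_zero n) ≫ (ρ_ ((mapCx F).obj K)).hom.f n =
        F.obj (K.X n) ◁ s.hom ≫ (ρ_ (F.obj (K.X n))).hom := by
      have h4 : (((mapCx F).obj K).X n) ◁ s.inv ≫
        ιT ((mapCx F).obj K) (𝟙_ (CochainComplex B ℤ)) n 0 n (add_zero n) ≫ (ρ_ ((mapCx F).obj K)).hom.f n =
        (ρ_ (((mapCx F).obj K).X n)).hom := ιT_rightUnitor_hom ((mapCx F).obj K) n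
      have h5 := congrArg (fun t => (F.obj (K.X n)) ◁ s.hom ≫ t) h4
      refine Eq.trans ?_ h5
      have h6 : F.obj (K.X n) ◁ s.hom ≫ F.obj (K.X n) ◁ s.inv = 𝟙 _ := by
        rw [← MonoidalCategory.whiskerLeft_comp, Iso.hom_inv_id, MonoidalCategory.whiskerLeft_id]
      exact ((reassoc_of% h6) _).symm
    exact aux1 _ _ _ _ _ _ _ _ _ _ _ h1 h2 h3 (MonoidalCategory.whiskerLeft_comp _ _ _)
  have e4 : ιT K N n 0 n (add_zero n) ≫ adj.unit.app ((K ⊗ N).X n) = adj.unit.app _ ≫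
      G.map (F.map (ιT K N n 0 n (add_zero n))) := adj.unit.naturality _
  have e5 : adj.counit.app ((𝟙_ (CochainComplex B ℤ)).X 0) ≫ s.hom = F.map (G.map s.hom) ≫ adj.counit.app (𝟙_ B) :=
    (adj.counit.naturality s.hom).symm
  have e6 : δ F (K.X n) (N.X 0) ≫ F.obj (K.X n) ◁ (adj.counit.app ((𝟙_ (CochainComplex B ℤ)).X 0) ≫ s.hom) ≫
      (ρ_ (F.obj (K.X n))).hom = F.map (K.X n ◁ G.map s.hom) ≫ act F (adj.counit.app (𝟙_ B)) (K.X n) := by
    refine Eq.trans ?_ (act_comp F (G.map s.hom) (adj.counit.app (𝟙_ B)) (K.X n))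
    exact congrArg (fun t => δ F (K.X n) (N.X 0) ≫ F.obj (K.X n) ◁ t ≫ (ρ_ (F.obj (K.X n))).hom) e5
  have e7 : K.X n ◁ G.map s.hom ≫ adj.unit.app _ = adj.unit.app _ ≫ G.map (F.map (K.X n ◁ G.map s.hom)) :=
    adj.unit.naturality _
  have e8 : G.map (F.map (ιT K N n 0 n (add_zero n))) ≫ G.map ((act (mapCx F) (cntCx F G adj) K).f n) =
      G.map (F.map (K.X n ◁ G.map s.hom)) ≫ G.map (act F (adj.counit.app (𝟙_ B)) (K.X n)) :=
    (G.map_comp _ _).symm.trans ((congrArg G.map (e1.trans e6)).trans (G.map_comp _ _))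
  exact aux2 _ _ _ _ _ _ _ _ _ e4 e8 e7

/-- The projection formula on complexes is an isomorphism if it is so in `A`. -/
theorem isIso_cxπ (h : ∀ E : A, IsIso (aπ F G adj E)) (K : CochainComplex A ℤ) : IsIso (cxπ F G adj K) := by
  have h1 : ∀ n, IsIso ((cxπ F G adj K).f n) := by
    intro n
    have h2 := isIso_ιT K ((mapCx G).obj (𝟙_ (CochainComplex B ℤ)))
      (fun q hq => G.map_isZero (isZero_unit_X q hq)) n
    have h3 := ιT_cxπ F G adj K n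
    have h4 := h (K.X n)
    have h5 : IsIso (ιT K ((mapCx G).obj (𝟙_ (CochainComplex B ℤ))) n 0 n (add_zero n) ≫
        (cxπ F G adj K).f n) := by
      rw [h3]
      have h6 : IsIso (G.map (HomologicalComplex.singleObjXSelf (ComplexShape.up ℤ) 0 (𝟙_ B)).hom) := inferInstance
      exact IsIso.comp_isIso' (@whiskerLeft_isIso _ _ _ (K.X n) _ _ _ h6) h4
    exact IsIso.of_isIso_comp_left (ιT K ((mapCx G).obj (𝟙_ (CochainComplex B ℤ))) n 0 n (add_zero n)) _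
  exact HomologicalComplex.Hom.isIso_of_components _

end Groth.Agent.Dual.H356.CxProj
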