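import Groth.Agent.Dual.H356.CxMon
import Groth.Agent.Dcoh.MonLpull182
import Groth.Agent.Dcoh.MonPull3_292
import Groth.Agent.Dcoh.DerPull2

/-!
# The coherence isomorphisms of `Lf^*` are monoidal

* `lpullCompIso_hom_Q`: `L(f ≫ g)^* ≅ Lg^* ⋙ Lf^*` on complexes;
* `isMonoidal_lpullCompIso`, `isMonoidal_lpullCongr`.
-/

set_option autoImplicit false

open CategoryTheory Limits MonoidalCategory AlgebraicGeometry

namespace Groth.Agent.Dual.H356.LpMon

open Functor.LaxMonoidal Functor.OplaxMonoidal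
open Groth.Agent.Dcoh Groth.Agent.Dcoh.MonCx Groth.Agent.Dcoh.MonD Groth.Agent.Dcoh.MonMapD
  Groth.Agent.Dcoh.MonLpull182 Groth.Agent.Dcoh.MonMap CxMon

universe w v u w' v' u' w'' v'' u''

section Lift

variable {A : Type u} [Category.{v} A] [Abelian A] [MonoidalCategory A] [TensorGood A]
  {B : Type u'} [Category.{v'} B] [Abelian B] [MonoidalCategory B] [TensorGood B]
  {C : Type u''} [Category.{v''} C] [Abelian C] [MonoidalCategory C] [TensorGood C]
  (P : ObjectProperty (CochainComplex A ℤ)) [P.IsMonoidal]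
  (P' : ObjectProperty (CochainComplex B ℤ)) [P'.IsMonoidal]
  (P'' : ObjectProperty (CochainComplex C ℤ)) [P''.IsMonoidal]
  (F : CochainComplex A ℤ ⥤ CochainComplex B ℤ) (hF : ∀ K, P K → P' (F.obj K))
  (G : CochainComplex B ℤ ⥤ CochainComplex C ℤ) (hG : ∀ K, P' K → P'' (G.obj K))
  (H : CochainComplex A ℤ ⥤ CochainComplex C ℤ) (hH : ∀ K, P K → P'' (H.obj K))
  (τ : F ⋙ G ⟶ H)

/-- The natural transformation between the functors on the full subcategories. -/
def liftComp : liftP P P' F hF ⋙ liftP P' P'' G hG ⟶ liftP P P'' H hH where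
  app K := ObjectProperty.homMk (τ.app K.obj)
  naturality K L φ := by
    ext1
    exact τ.naturality φ.hom

instance isMonoidal_liftComp [F.Monoidal] [G.Monoidal] [H.Monoidal] [NatTrans.IsMonoidal τ] :
    NatTrans.IsMonoidal (liftComp P P' P'' F hF G hG H hH τ) where
  unit := by
    ext1
    exact NatTrans.IsMonoidal.unit (τ := τ)
  tensor X Y := by
    ext1
    exact NatTrans.IsMonoidal.tensor (τ := τ) X.obj Y.obj

lemma liftP_δ [F.Monoidal] (K L : P.FullSubcategory) : (δ (liftP P P' F hF) K L).hom = δ F K.obj L.obj := rfl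

lemma liftP_μ [F.Monoidal] (K L : P.FullSubcategory) : (μ (liftP P P' F hF) K L).hom = μ F K.obj L.obj := rfl

end Lift

section Scheme

universe z

attribute [local instance] HasDerivedCategory.standard

open scoped Groth.Agent.Dcoh.MonCat Groth.Agent.Dcoh.ModD Groth.Agent.Dcoh.MonPull
open Groth.Agent.Dcoh.ModD Groth.Agent.Dcoh.DerPull

variable {X Y Z : Scheme.{z}} (f : X ⟶ Y) (g : Y ⟶ Z)

/-- The pullback of complexes. -/
noncomputable abbrev pbCx : CochainComplex Y.Modules ℤ ⥤ CochainComplex X.Modules ℤ :=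
  (Scheme.Modules.pullback f).mapHomologicalComplex (ComplexShape.up ℤ)

/-- The pullback of complexes is monoidal. -/
@[instance_reducible]
noncomputable def pbCxMonoidal : (pbCx f).Monoidal := mapCxMonoidal (Scheme.Modules.pullback f)

attribute [scoped instance] pbCxMonoidal

/-- The derived pullback is monoidal. -/
@[instance_reducible]
noncomputable def lpMonoidal [DCoh.HasLpull f] : (DCoh.Lpull f).Monoidal := lpullMonoidal f

attribute [scoped instance] lpMonoidal

/-- The pullback of K-flat complexes. -/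
noncomputable abbrev kfPull : (KF Y).FullSubcategory ⥤ (KF X).FullSubcategory :=
  liftP (KF Y) (KF X) (pbCx f) (fun K hK => KFlatInput.isKFlat_pullback f K hK)

/-- `Lf^*` on K-flat complexes. -/
noncomputable def lfIso [DCoh.HasLpull f] : LP (KF Y) ⋙ DCoh.Lpull f ≅ kfPull f ⋙ LP (KF X) := lpullLiftIso f

instance isMonoidal_lfIso [DCoh.HasLpull f] : NatTrans.IsMonoidal (lfIso f).hom := by
  let _ := lifting (KF Y) (KF X) (pbCx f) (fun K hK => KFlatInput.isKFlat_pullback f K hK) (DCoh.Lpull f)
    (lpullLiftIso f)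
  exact Localization.Monoidal.lifting_isMonoidal (LP (KF Y)) (qisP (KF Y)) (DCoh.Lpull f) (kfPull f ⋙ LP (KF X))

lemma lfIso_hom_app [DCoh.HasLpull f] (K : (KF Y).FullSubcategory) :
    (lfIso f).hom.app K = (lpullCounitQ f).app K.obj := rfl

/-- `Lf^* Lg^* ≅ L(f ≫ g)^*` on complexes. -/
lemma lpullCompIso_hom_Q [DCoh.HasLpull f] [DCoh.HasLpull g] [DCoh.HasLpull (f ≫ g)]
    (K : CochainComplex Z.Modules ℤ) :
    (lpullCompIso f g).hom.app (DerivedCategory.Q.obj K) ≫ (lpullCounitQ (f ≫ g)).app K =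
      (DCoh.Lpull f).map ((lpullCounitQ g).app K) ≫ (lpullCounitQ f).app ((pbCx g).obj K) ≫
        DerivedCategory.Q.map ((compTrans (Scheme.Modules.pullback g) (Scheme.Modules.pullback f)
          (Scheme.Modules.pullback (f ≫ g)) (Scheme.Modules.pullbackComp f g).hom).app K) := by
  have h := lpullCompIso_fac f g ((HomotopyCategory.quotient _ _).obj K)
  unfold lpullCounitQ
  rw [DerComp.counitQ_app, DerComp.counitQ_app, DerComp.counitQ_app, ← h]
  have h1 := (lpullCompIso f g).hom.naturality ((DerivedCategory.quotientCompQhIso Z.Modules).inv.app K)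
  rw [reassoc_of% h1.symm]
  have h2 : DerivedCategory.Qh.map
      ((Functor.mapHomotopyCategoryCompIso (Scheme.Modules.pullbackComp f g) (ComplexShape.up ℤ)).hom.app
        ((HomotopyCategory.quotient Z.Modules (ComplexShape.up ℤ)).obj K)) ≫
      (DerivedCategory.quotientCompQhIso X.Modules).hom.app
        (((Scheme.Modules.pullback (f ≫ g)).mapHomologicalComplex (ComplexShape.up ℤ)).obj K) =
      (DerivedCategory.quotientCompQhIso X.Modules).hom.app
        (((Scheme.Modules.pullback f).mapHomologicalComplex (ComplexShape.up ℤ)).obj ((pbCx g).obj K)) ≫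
      DerivedCategory.Q.map
          ((compTrans (Scheme.Modules.pullback g) (Scheme.Modules.pullback f) (Scheme.Modules.pullback (f ≫ g))
                (Scheme.Modules.pullbackComp f g).hom).app K) := by
    rw [← (DerivedCategory.quotientCompQhIso X.Modules).hom.naturality]
    have h3 : (Functor.mapHomotopyCategoryCompIso (Scheme.Modules.pullbackComp f g) (ComplexShape.up ℤ)).hom.app
        ((HomotopyCategory.quotient Z.Modules (ComplexShape.up ℤ)).obj K) =
        (HomotopyCategory.quotient X.Modules (ComplexShape.up ℤ)).map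
        ((compTrans (Scheme.Modules.pullback g) (Scheme.Modules.pullback f) (Scheme.Modules.pullback (f ≫ g))
                (Scheme.Modules.pullbackComp f g).hom).app K) := by
      simp [Functor.mapHomotopyCategoryCompIso, compTrans]
      rfl
    rw [h3]
    rfl
  simp only [Category.assoc, Functor.map_comp]
  rw [h2]
  rw [Iso.hom_inv_id_app_assoc]
  have h5 : (DCoh.Lpull f).map ((DerivedCategory.quotientCompQhIso Y.Modules).hom.app ((pbCx g).obj K)) ≫
      (DCoh.Lpull f).map ((DerivedCategory.quotientCompQhIso Y.Modules).inv.app ((pbCx g).obj K)) = 𝟙 _ := by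
    rw [← Functor.map_comp, Iso.hom_inv_id_app, CategoryTheory.Functor.map_id]
  refine congrArg (fun t => (DCoh.Lpull f).map ((DCoh.Lpull g).map
    ((DerivedCategory.quotientCompQhIso Z.Modules).inv.app K)) ≫
      (DCoh.Lpull f).map ((lpullCounit g).app ((HomotopyCategory.quotient Z.Modules (ComplexShape.up ℤ)).obj K)) ≫ t) ?_
  exact ((reassoc_of% h5) _).symm

section

variable [DCoh.HasLpull f] [DCoh.HasLpull g] [DCoh.HasLpull (f ≫ g)]

/-- The composition of the pullbacks of K-flat complexes. -/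
noncomputable def kfComp : kfPull g ⋙ kfPull f ⟶ kfPull (f ≫ g) :=
  liftComp (KF Z) (KF Y) (KF X) (pbCx g) (fun K hK => KFlatInput.isKFlat_pullback g K hK)
    (pbCx f) (fun K hK => KFlatInput.isKFlat_pullback f K hK)
    (pbCx (f ≫ g)) (fun K hK => KFlatInput.isKFlat_pullback (f ≫ g) K hK)
    (compTrans (Scheme.Modules.pullback g) (Scheme.Modules.pullback f)
          (Scheme.Modules.pullback (f ≫ g)) (Scheme.Modules.pullbackComp f g).hom)

instance isMonoidal_kfComp : NatTrans.IsMonoidal (kfComp f g) := by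
  have := isMonoidal_mapCx_comp (Scheme.Modules.pullback g) (Scheme.Modules.pullback f)
          (Scheme.Modules.pullback (f ≫ g)) (Scheme.Modules.pullbackComp f g).hom
  exact isMonoidal_liftComp _ _ _ _ _ _ _ _ _ _

/-- `Lg^* ⋙ Lf^* ≅ L(f ≫ g)^*` is monoidal. -/
theorem isMonoidal_lpullCompIso : NatTrans.IsMonoidal (lpullCompIso f g).hom := by
  have : (LP (KF Z)).EssSurj := Localization.essSurj (LP (KF Z)) (qisP (KF Z))
  refine isMonoidal_of_whiskerLeft (LP (KF Z)) _ ?_
  have h : Functor.whiskerLeft (LP (KF Z)) (lpullCompIso f g).hom =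
      (Functor.associator (LP (KF Z)) (DCoh.Lpull g) (DCoh.Lpull f)).inv ≫
      Functor.whiskerRight (lfIso g).hom (DCoh.Lpull f) ≫
      (Functor.associator (kfPull g) (LP (KF Y)) (DCoh.Lpull f)).hom ≫
      Functor.whiskerLeft (kfPull g) (lfIso f).hom ≫
      (Functor.associator (kfPull g) (kfPull f) (LP (KF X))).inv ≫
      Functor.whiskerRight (kfComp f g) (LP (KF X)) ≫ (lfIso (f ≫ g)).inv := by
    ext K
    have h1 := lpullCompIso_hom_Q f g K.obj
    rw [← cancel_mono ((lfIso (f ≫ g)).hom.app K)]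
    refine Eq.trans (h1) ?_
    simp
    rfl
  rw [h]
  have h1 : NatTrans.IsMonoidal (Functor.associator (LP (KF Z)) (DCoh.Lpull g) (DCoh.Lpull f)).inv := inferInstance
  have h2 : NatTrans.IsMonoidal (Functor.whiskerRight (lfIso g).hom (DCoh.Lpull f)) := inferInstance
  have h3 : NatTrans.IsMonoidal (Functor.associator (kfPull g) (LP (KF Y)) (DCoh.Lpull f)).hom := inferInstance
  have h4 : NatTrans.IsMonoidal (Functor.whiskerLeft (kfPull g) (lfIso f).hom) := inferInstance
  have h5 : NatTrans.IsMonoidal (Functor.associator (kfPull g) (kfPull f) (LP (KF X))).inv := inferInstance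
  have h6 : NatTrans.IsMonoidal (Functor.whiskerRight (kfComp f g) (LP (KF X))) := inferInstance
  have h7 : NatTrans.IsMonoidal (lfIso (f ≫ g)).inv := inferInstance
  infer_instance

end

theorem isMonoidal_lpullCongr {f g : X ⟶ Y} (h : f = g) [DCoh.HasLpull f] [DCoh.HasLpull g] :
    NatTrans.IsMonoidal (lpullCongr h).hom := by
  subst h
  exact inferInstanceAs (NatTrans.IsMonoidal (𝟙 (DCoh.Lpull f)))

/-- The derived pullbacks along the two sides of a commutative square. -/
noncomputable def lpullSq {X' Y' : Scheme.{z}} {f' : X' ⟶ Y'} {a : X' ⟶ X} {b : Y' ⟶ Y} (sq : a ≫ f = f' ≫ b)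
    [DCoh.HasLpull f] [DCoh.HasLpull f'] [DCoh.HasLpull a] [DCoh.HasLpull b] :
    DCoh.Lpull f ⋙ DCoh.Lpull a ≅ DCoh.Lpull b ⋙ DCoh.Lpull f' :=
  haveI := hasLpull (a ≫ f)
  haveI := hasLpull (f' ≫ b)
  lpullCompIso a f ≪≫ lpullCongr sq ≪≫ (lpullCompIso f' b).symm

theorem isMonoidal_lpullSq {X' Y' : Scheme.{z}} {f' : X' ⟶ Y'} {a : X' ⟶ X} {b : Y' ⟶ Y} (sq : a ≫ f = f' ≫ b)
    [DCoh.HasLpull f] [DCoh.HasLpull f'] [DCoh.HasLpull a] [DCoh.HasLpull b] :
    NatTrans.IsMonoidal (lpullSq f sq).hom := by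
  have := hasLpull (a ≫ f)
  have := hasLpull (f' ≫ b)
  have h1 := isMonoidal_lpullCompIso a f
  have h2 := isMonoidal_lpullCongr sq
  have h3 := isMonoidal_lpullCompIso f' b
  have h4 : NatTrans.IsMonoidal (lpullCompIso f' b).inv := inferInstance
  have h : (lpullSq f sq).hom = (lpullCompIso a f).hom ≫ (lpullCongr sq).hom ≫ (lpullCompIso f' b).inv := rfl
  rw [h]
  infer_instance

end Scheme

end Groth.Agent.Dual.H356.LpMon
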