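import Groth.Agent.Dual.H356.AbsPair
import Groth.Agent.Dcoh.MonPull2_292
import Groth.Agent.Dcoh.ClosedProj

/-!
# The projection formula for modules along a closed immersion, through the monoidal structure
-/

set_option autoImplicit false
universe u

open CategoryTheory CategoryTheory.Limits AlgebraicGeometry MonoidalCategory

open scoped Groth.Agent.Dcoh.MonCat Groth.Agent.Dcoh.MonPull

namespace Groth.Agent.Dual.H356.ModProj

open Groth.Agent.Dcoh Groth.Agent.Dcoh.MonPull AbsPair Functor.LaxMonoidal Functor.OplaxMonoidal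
open Groth.Agent.Dcoh.MonTm (tm comp_ap id_ap cs sc whiskerLeft_tm braiding_hom_tm leftUnitor_hom_tm rightUnitor_hom_tm)

variable {X Y : Scheme.{u}} (f : X ⟶ Y)

/-- The counit `f^* f_* O ⟶ O`. -/
noncomputable abbrev cnt : (Scheme.Modules.pullback f).obj ((Scheme.Modules.pushforward f).obj (𝟙_ X.Modules)) ⟶
    𝟙_ X.Modules :=
  (Scheme.Modules.pullbackPushforwardAdjunction f).counit.app (𝟙_ X.Modules)

/-- The projection formula for modules. -/
noncomputable abbrev mπ (E : Y.Modules) : E ⊗ (Scheme.Modules.pushforward f).obj (𝟙_ X.Modules) ⟶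
    (Scheme.Modules.pushforward f).obj ((Scheme.Modules.pullback f).obj E) :=
  π (cnt f) (Scheme.Modules.pullbackPushforwardAdjunction f) E

lemma mπ_eq (E : Y.Modules) : mπ f E = (β_ E _).hom ≫
    (show (Scheme.Modules.pushforward f).obj (𝟙_ X.Modules) ⊗ E ⟶
      (Scheme.Modules.pushforward f).obj (𝟙_ X.Modules ⊗ (Scheme.Modules.pullback f).obj E) from
      ClosedProj.proj f (𝟙_ X.Modules) E) ≫ (Scheme.Modules.pushforward f).map (λ_ _).hom := by
  refine MonTm.ext₂ _ _ fun V e a => ?_
  rw [comp_ap, comp_ap, braiding_hom_tm]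
  have h1 : (ClosedProj.proj f (𝟙_ X.Modules) E).app V (tm (X := Y) (M := (Scheme.Modules.pushforward f).obj (𝟙_ X.Modules)) a e) = _ :=
    ClosedProj.proj_tm f (𝟙_ X.Modules) E (U := V) a e
  refine Eq.trans (b := (act (Scheme.Modules.pullback f) (cnt f) E).app (f ⁻¹ᵁ V) (pb f (tm e a))) rfl ?_
  have h2 : (act (Scheme.Modules.pullback f) (cnt f) E).app (f ⁻¹ᵁ V) (pb f (tm e a)) =
      (sc (X := X) (U := f ⁻¹ᵁ V) a) • pb f e := by
    rw [act, comp_ap, comp_ap, δ_pb, whiskerLeft_tm]
    have h3 : (cnt f).app (f ⁻¹ᵁ V) (pb f a) = a := counit_pb f (𝟙_ X.Modules) a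
    rw [h3]
    exact rightUnitor_hom_tm _ _
  rw [h2]
  refine Eq.trans ?_ (congrArg (((Scheme.Modules.pushforward f).map (λ_ ((Scheme.Modules.pullback f).obj E)).hom).app V)
    h1).symm
  exact (leftUnitor_hom_tm (X := X) (U := f ⁻¹ᵁ V) a (pb f e)).symm

/-- The projection formula for modules along a closed immersion. -/
instance isIso_mπ [IsClosedImmersion f] (E : Y.Modules) : IsIso (mπ f E) := by
  rw [mπ_eq]
  have h := ClosedProj.isIso_proj f (𝟙_ X.Modules) E
  exact IsIso.comp_isIso' inferInstance (IsIso.comp_isIso' h inferInstance)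

end Groth.Agent.Dual.H356.ModProj
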