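import Groth.Agent.Dcoh.DerComp
import Groth.Agent.Dcoh.DerAdj

/-!
# The derived adjunction `LF ⊣ G` for an exact right adjoint `G`, on complexes
-/

set_option autoImplicit false

universe w w' v v' u u'

open CategoryTheory CategoryTheory.Limits Pretriangulated

namespace Groth.Agent.Dual.H356.PushAdj

open Groth.Agent.Dcoh.DerAbs Groth.Agent.Dcoh.DerHo Groth.Agent.Dcoh.DerAdj Groth.Agent.Dcoh.DerComp

variable {A : Type u} [Category.{v} A] [Abelian A] [HasDerivedCategory.{w} A]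
  {B : Type u'} [Category.{v'} B] [Abelian B] [HasDerivedCategory.{w'} B]
  {F : A ⥤ B} {G : B ⥤ A} [F.Additive] [G.Additive] (adj : F ⊣ G)
  (hB : HasKInj B)
  {P : ObjectProperty (HomotopyCategory A (ComplexShape.up ℤ))}
  (hF : LeftData (𝟭 _) (HomotopyCategory.quasiIso A (ComplexShape.up ℤ))
      (F.mapHomotopyCategory (ComplexShape.up ℤ) ⋙ DerivedCategory.Qh) P)
  (LF : DerivedCategory A ⥤ DerivedCategory B)
  (α : DerivedCategory.Qh ⋙ LF ⟶ F.mapHomotopyCategory (ComplexShape.up ℤ) ⋙ DerivedCategory.Qh)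
  [LF.IsLeftDerivedFunctor α (HomotopyCategory.quasiIso A (ComplexShape.up ℤ))]
  [PreservesFiniteLimits G] [PreservesFiniteColimits G]

/-- The derived adjunction. -/
noncomputable def padj : LF ⊣ G.mapDerivedCategory :=
  haveI := isRightDerivedFunctor_mapDerivedCategory G
  derivedAdj adj hB hF LF α G.mapDerivedCategory G.mapDerivedCategoryFactorsh.inv

lemma padj_unit (K : HomotopyCategory A (ComplexShape.up ℤ)) :
    (padj adj hB hF LF α).unit.app (DerivedCategory.Qh.obj K) ≫ G.mapDerivedCategory.map (α.app K) =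
      DerivedCategory.Qh.map ((adjHo adj (ComplexShape.up ℤ)).unit.app K) ≫
        G.mapDerivedCategoryFactorsh.inv.app ((F.mapHomotopyCategory (ComplexShape.up ℤ)).obj K) :=
  haveI := isRightDerivedFunctor_mapDerivedCategory G
  derivedAdj_unit_fac adj hB hF LF α G.mapDerivedCategory G.mapDerivedCategoryFactorsh.inv K

lemma factorsh_inv_app (K : CochainComplex B ℤ) :
    G.mapDerivedCategoryFactorsh.inv.app ((HomotopyCategory.quotient _ _).obj K) =
      DerivedCategory.Qh.map ((G.mapHomotopyCategoryFactors (ComplexShape.up ℤ)).hom.app K) ≫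
      (DerivedCategory.quotientCompQhIso A).hom.app _ ≫ G.mapDerivedCategoryFactors.inv.app K ≫
      G.mapDerivedCategory.map ((DerivedCategory.quotientCompQhIso B).inv.app K) := by
  rw [← cancel_epi (G.mapDerivedCategoryFactorsh.hom.app ((HomotopyCategory.quotient _ _).obj K)),
    Iso.hom_inv_id_app, G.mapDerivedCategoryFactorsh_hom_app]
  simp only [Category.assoc]
  have h1 : DerivedCategory.Qh.map ((G.mapHomotopyCategoryFactors (ComplexShape.up ℤ)).inv.app K) ≫
    DerivedCategory.Qh.map ((G.mapHomotopyCategoryFactors (ComplexShape.up ℤ)).hom.app K) = 𝟙 _ := by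
    rw [← Functor.map_comp, Iso.inv_hom_id_app, CategoryTheory.Functor.map_id]
  rw [reassoc_of% h1]
  rw [Iso.inv_hom_id_app_assoc, Iso.hom_inv_id_app_assoc, ← Functor.map_comp, Iso.hom_inv_id_app]
  exact (G.mapDerivedCategory.map_id _).symm

lemma aux {C : Type*} [Category C] {x₁ x₂ x₃ x₄ x₅ x₆ x₇ x₈ : C} (qi : x₁ ⟶ x₂) (un : x₂ ⟶ x₃) (un' : x₁ ⟶ x₄)
    (gq : x₄ ⟶ x₃) (ga : x₃ ⟶ x₅) (gq' : x₅ ⟶ x₆) (hu : x₂ ⟶ x₇) (fh : x₇ ⟶ x₅) (q7 : x₇ ⟶ x₈) (fi : x₈ ⟶ x₆)
    (gqi : x₆ ⟶ x₅) (qh : x₂ ⟶ x₁) (qu : x₁ ⟶ x₈) (idm : x₇ ⟶ x₇)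
    (h2 : qi ≫ un = un' ≫ gq) (h : un ≫ ga = hu ≫ fh) (h1 : fh = idm ≫ q7 ≫ fi ≫ gqi)
    (h3 : idm = 𝟙 _)     (h4 : hu ≫ q7 = qh ≫ qu) (h5 : gqi ≫ gq' = 𝟙 _) (h6 : qi ≫ qh = 𝟙 _) :
    un' ≫ gq ≫ ga ≫ gq' = qu ≫ fi := by
  rw [← reassoc_of% h2, reassoc_of% h, h1, h3]
  simp only [Category.assoc]
  rw [h5, Category.id_comp, reassoc_of% h4, reassoc_of% h6]
  simp

/-- The unit of the derived adjunction on complexes. -/
lemma padj_unit_Q (K : CochainComplex A ℤ) :
    (padj adj hB hF LF α).unit.app (DerivedCategory.Q.obj K) ≫ G.mapDerivedCategory.map ((counitQ F LF α).app K) =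
      DerivedCategory.Q.map ((adjCx adj (ComplexShape.up ℤ)).unit.app K) ≫
        G.mapDerivedCategoryFactors.inv.app ((F.mapHomologicalComplex (ComplexShape.up ℤ)).obj K) := by
  have h := padj_unit adj hB hF LF α ((HomotopyCategory.quotient A (ComplexShape.up ℤ)).obj K)
  have h1 := factorsh_inv_app (G := G) ((F.mapHomologicalComplex (ComplexShape.up ℤ)).obj K)
  have h2 := (padj adj hB hF LF α).unit.naturality ((DerivedCategory.quotientCompQhIso A).inv.app K)
  have h3 : DerivedCategory.Qh.map ((G.mapHomotopyCategoryFactors (ComplexShape.up ℤ)).hom.app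
      ((F.mapHomologicalComplex (ComplexShape.up ℤ)).obj K)) = 𝟙 _ := DerivedCategory.Qh.map_id _
  have h4 := (DerivedCategory.quotientCompQhIso A).hom.naturality ((adjCx adj (ComplexShape.up ℤ)).unit.app K)
  have h5 : G.mapDerivedCategory.map ((DerivedCategory.quotientCompQhIso B).inv.app
      ((F.mapHomologicalComplex (ComplexShape.up ℤ)).obj K)) ≫
      G.mapDerivedCategory.map ((DerivedCategory.quotientCompQhIso B).hom.app
      ((F.mapHomologicalComplex (ComplexShape.up ℤ)).obj K)) = 𝟙 _ := by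
    rw [← Functor.map_comp, Iso.inv_hom_id_app]
    exact CategoryTheory.Functor.map_id _ _
  rw [counitQ_app, Functor.map_comp, Functor.map_comp]
  have h6 : (DerivedCategory.quotientCompQhIso A).inv.app K ≫ (DerivedCategory.quotientCompQhIso A).hom.app K =
    𝟙 _ := Iso.inv_hom_id_app _ _
  exact aux _ _ _ _ _ _ _ _ _ _ _ _ _ _ h2 h h1 h3 h4 h5 h6

end Groth.Agent.Dual.H356.PushAdj
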