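import Groth.Agent.Dual.H356.AbsStr
import Groth.Agent.Dual.H356.CxProj
import Groth.Agent.Dual.H356.ModProj
import Groth.Agent.Dual.H356.PushAdj
import Groth.Agent.Dual.H356.LpMon
import Groth.Prelude.Def_Dual3

/-!
# The projection formula in `D(O)` along a closed immersion

`padjS i : Lpull i ⊣ i_*`; `isStr_counit i`: the projection formula `E ⊗ i_* O ≅ i_* Li^* E` through the monoidal
structure of `Li^*`.
-/

set_option autoImplicit false
universe u

open CategoryTheory CategoryTheory.Limits AlgebraicGeometry MonoidalCategory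
attribute [local instance] HasDerivedCategory.standard

open scoped Groth.Agent.Dcoh.MonCat Groth.Agent.Dcoh.ModD Groth.Agent.Dcoh.MonPull Groth.Agent.Dual.H356.LpMon

namespace Groth.Agent.Dual.H356.DProj

open Groth.Agent.Dcoh Groth.Agent.Dcoh.MonCx Groth.Agent.Dcoh.MonD Groth.Agent.Dcoh.ModD Groth.Agent.Dcoh.DerAdj
  Groth.Agent.Dcoh.DerPull AbsPair AbsStr LpMon Functor.LaxMonoidal Functor.OplaxMonoidal

variable {T W : Scheme.{u}} (i : T ⟶ W) [PreservesFiniteLimits (Scheme.Modules.pushforward i)]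
  [PreservesFiniteColimits (Scheme.Modules.pushforward i)] [DCoh.HasLpull i]

/-- `Li^* ⊣ i_*` for `i_*` exact. -/
noncomputable def padjS : DCoh.Lpull i ⊣ Dual3.pushD i :=
  PushAdj.padj (Scheme.Modules.pullbackPushforwardAdjunction i) (DerSch.hasKInj T) (pullData i) (DCoh.Lpull i)
    (lpullCounit i)

/-- The adjunction on complexes. -/
noncomputable abbrev acx : pbCx i ⊣ (Scheme.Modules.pushforward i).mapHomologicalComplex (ComplexShape.up ℤ) :=
  adjCx (Scheme.Modules.pullbackPushforwardAdjunction i) (ComplexShape.up ℤ)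

lemma padjS_unit_Q (K : CochainComplex W.Modules ℤ) :
    (padjS i).unit.app (DerivedCategory.Q.obj K) ≫ (Dual3.pushD i).map ((lpullCounitQ i).app K) =
      DerivedCategory.Q.map ((acx i).unit.app K) ≫
        (Scheme.Modules.pushforward i).mapDerivedCategoryFactors.inv.app ((pbCx i).obj K) :=
  PushAdj.padj_unit_Q (Scheme.Modules.pullbackPushforwardAdjunction i) (DerSch.hasKInj T) (pullData i) (DCoh.Lpull i)
    (lpullCounit i) K

lemma padjS_homEquiv_Q {K : CochainComplex W.Modules ℤ} {L : CochainComplex T.Modules ℤ} (φ : (pbCx i).obj K ⟶ L) :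
    (padjS i).homEquiv _ _ ((lpullCounitQ i).app K ≫ DerivedCategory.Q.map φ) =
      DerivedCategory.Q.map ((acx i).homEquiv _ _ φ) ≫
        (Scheme.Modules.pushforward i).mapDerivedCategoryFactors.inv.app L := by
  rw [Adjunction.homEquiv_unit, Adjunction.homEquiv_unit, Functor.map_comp, Functor.map_comp, Category.assoc]
  have h1 := padjS_unit_Q i K
  have h2 := (Scheme.Modules.pushforward i).mapDerivedCategoryFactors.inv.naturality φ
  refine ((reassoc_of% h1) _).trans ?_
  exact congrArg (fun t => DerivedCategory.Q.map ((acx i).unit.app K) ≫ t) h2.symm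

/-- The structure morphism `Li^* P ⟶ 𝟙_` for a K-flat resolution `P` of `i_* O`. -/
noncomputable abbrev strC (P : (KF W).FullSubcategory) (q : (kfPull i).obj P ⟶ 𝟙_ (KF T).FullSubcategory) :
    (DCoh.Lpull i).obj ((LP (KF W)).obj P) ⟶ 𝟙_ (DCoh.D T) :=
  liftC (LP (KF W)) (LP (KF T)) (DCoh.Lpull i) (kfPull i) (lfIso i) q

section

universe v u' v'

variable {A : Type u} [Category.{v} A] [Abelian A] [MonoidalCategory A] [TensorGood A]
  {B : Type u'} [Category.{v'} B] [Abelian B] [MonoidalCategory B] [TensorGood B]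
  (P : ObjectProperty (CochainComplex A ℤ)) [P.IsMonoidal]
  (P' : ObjectProperty (CochainComplex B ℤ)) [P'.IsMonoidal]
  (F : CochainComplex A ℤ ⥤ CochainComplex B ℤ) (hF : ∀ K, P K → P' (F.obj K)) [F.Monoidal]

lemma act_liftP (R : P.FullSubcategory) (q : (MonMapD.liftP P P' F hF).obj R ⟶ 𝟙_ P'.FullSubcategory)
    (K : P.FullSubcategory) : (act (MonMapD.liftP P P' F hF) q K).hom = act F q.hom K.obj := rfl

end

omit [PreservesFiniteLimits (Scheme.Modules.pushforward i)]
  [PreservesFiniteColimits (Scheme.Modules.pushforward i)] [DCoh.HasLpull i] in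
lemma act_kfPull (P : (KF W).FullSubcategory) (q : (kfPull i).obj P ⟶ 𝟙_ (KF T).FullSubcategory)
    (K : (KF W).FullSubcategory) : (act (kfPull i) q K).hom = act (pbCx i) q.hom K.obj :=
  act_liftP (KF W) (KF T) (pbCx i) _ P q K

lemma π_strC (P : (KF W).FullSubcategory) (q : (kfPull i).obj P ⟶ 𝟙_ (KF T).FullSubcategory)
    (K : (KF W).FullSubcategory) :
    π (strC i P q) (padjS i) ((LP (KF W)).obj K) ≫ (Dual3.pushD i).map ((lfIso i).hom.app K) =
      μ (LP (KF W)) K P ≫ DerivedCategory.Q.map ((acx i).homEquiv _ _ (act (pbCx i) q.hom K.obj)) ≫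
        (Scheme.Modules.pushforward i).mapDerivedCategoryFactors.inv.app ((pbCx i).obj K.obj) := by
  rw [π, ← Adjunction.homEquiv_naturality_right, act_liftC, Adjunction.homEquiv_naturality_left]
  refine congrArg (fun t => μ (LP (KF W)) K P ≫ t) ?_
  exact padjS_homEquiv_Q i (K := (K ⊗ P).obj) (act (pbCx i) q.hom K.obj)

/-- The complex `i_* O`. -/
noncomputable abbrev pushO : CochainComplex W.Modules ℤ :=
  ((Scheme.Modules.pushforward i).mapHomologicalComplex (ComplexShape.up ℤ)).obj (𝟙_ (CochainComplex T.Modules ℤ))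

/-- The morphism `i^* P ⟶ O` adjoint to `p`. -/
noncomputable abbrev qOf {P : (KF W).FullSubcategory} (p : P.obj ⟶ pushO i) :
    (kfPull i).obj P ⟶ 𝟙_ (KF T).FullSubcategory :=
  ObjectProperty.homMk (((acx i).homEquiv _ _).symm p)

omit [PreservesFiniteLimits (Scheme.Modules.pushforward i)]
  [PreservesFiniteColimits (Scheme.Modules.pushforward i)] [DCoh.HasLpull i] in
lemma act_qOf {P : (KF W).FullSubcategory} (p : P.obj ⟶ pushO i) (K : CochainComplex W.Modules ℤ) :
    (acx i).homEquiv _ _ (act (pbCx i) (((acx i).homEquiv _ _).symm p) K) = (K ◁ p) ≫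
      CxProj.cxπ (Scheme.Modules.pullback i) (Scheme.Modules.pushforward i)
        (Scheme.Modules.pullbackPushforwardAdjunction i) K :=
  CxProj.cx_homEquiv_act (Scheme.Modules.pullback i) (Scheme.Modules.pushforward i)
    (Scheme.Modules.pullbackPushforwardAdjunction i) p K

/-- The projection formula along a closed immersion. -/
theorem isStr_strC [IsClosedImmersion i] {P : (KF W).FullSubcategory} (p : P.obj ⟶ pushO i) (hp : QuasiIso p) :
    IsStr (DCoh.Lpull i) (strC i P (qOf i p)) := by
  refine isStr_of_isIso_π (padjS i) fun E => ?_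
  have hes : (LP (KF W)).EssSurj := Localization.essSurj (LP (KF W)) (qisP (KF W))
  obtain ⟨K, ⟨e⟩⟩ := hes.mem_essImage E
  refine isIso_π_of_iso (padjS i) (strC i P (qOf i p)) e ?_
  have h := π_strC i P (qOf i p) K
  have h1 : IsIso (CxProj.cxπ (Scheme.Modules.pullback i) (Scheme.Modules.pushforward i)
        (Scheme.Modules.pullbackPushforwardAdjunction i) K.obj) :=
    CxProj.isIso_cxπ _ _ _ (fun E => ModProj.isIso_mπ i E) K.obj
  have h2 : QuasiIso (K.obj ◁ p) := quasiIso_whiskerLeft K.obj K.property p hp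
  have h3 : IsIso (DerivedCategory.Q.map ((acx i).homEquiv _ _ (act (pbCx i) (qOf i p).hom K.obj))) := by
    have h4 := act_qOf i p K.obj
    have h5 : IsIso (DerivedCategory.Q.map (K.obj ◁ p) ≫ DerivedCategory.Q.map
      (CxProj.cxπ (Scheme.Modules.pullback i) (Scheme.Modules.pushforward i)
        (Scheme.Modules.pullbackPushforwardAdjunction i) K.obj)) := inferInstance
    rw [← Functor.map_comp, ← h4] at h5
    exact h5
  have h4 : IsIso (π (strC i P (qOf i p)) (padjS i) ((LP (KF W)).obj K) ≫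
      (Dual3.pushD i).map ((lfIso i).hom.app K)) := by
    rw [h]
    have h7 : IsIso ((Scheme.Modules.pushforward i).mapDerivedCategoryFactors.inv.app ((pbCx i).obj K.obj)) :=
      NatIso.inv_app_isIso _ _
    exact IsIso.comp_isIso' inferInstance (IsIso.comp_isIso' h3 h7)
  exact IsIso.of_isIso_comp_right _ ((Dual3.pushD i).map ((lfIso i).hom.app K))

lemma homEquiv_strC {P : (KF W).FullSubcategory} (p : P.obj ⟶ pushO i) :
    (padjS i).homEquiv _ _ (strC i P (qOf i p)) = DerivedCategory.Q.map p ≫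
      (Scheme.Modules.pushforward i).mapDerivedCategoryFactors.inv.app (𝟙_ (CochainComplex T.Modules ℤ)) ≫
        (Dual3.pushD i).map (η (LP (KF T))) := by
  have h1 : strC i P (qOf i p) = ((lpullCounitQ i).app P.obj ≫
      DerivedCategory.Q.map (((acx i).homEquiv _ _).symm p)) ≫ η (LP (KF T)) := by
    rw [Category.assoc]
    rfl
  rw [h1, Adjunction.homEquiv_naturality_right]
  have h2 := padjS_homEquiv_Q i (((acx i).homEquiv _ _).symm p)
  rw [Equiv.apply_symm_apply] at h2
  refine (congrArg (fun t => t ≫ (Dual3.pushD i).map (η (LP (KF T)))) h2).trans ?_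
  rw [Category.assoc]

/-- The projection formula along a closed immersion: the structure pair `(i_* 𝟙, counit)`. -/
theorem isStr_counit [IsClosedImmersion i] : IsStr (DCoh.Lpull i) ((padjS i).counit.app (𝟙_ (DCoh.D T))) := by
  obtain ⟨P, p, hP, hp⟩ := KF_res (pushO i)
  have h := isStr_strC i (P := ⟨P, hP⟩) p hp
  let w := (padjS i).homEquiv _ _ (strC i ⟨P, hP⟩ (qOf i p))
  have hw : IsIso w := by
    have h1 := homEquiv_strC i (P := ⟨P, hP⟩) p
    have h2 : IsIso (DerivedCategory.Q.map p) := inferInstance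
    change IsIso ((padjS i).homEquiv _ _ (strC i ⟨P, hP⟩ (qOf i p)))
    rw [h1]
    have h7 : IsIso ((Scheme.Modules.pushforward i).mapDerivedCategoryFactors.inv.app
      (𝟙_ (CochainComplex T.Modules ℤ))) := NatIso.inv_app_isIso _ _
    exact IsIso.comp_isIso' h2 (IsIso.comp_isIso' h7 inferInstance)
  refine isStr_of_iso h (inv w) _ ?_
  rw [homEquiv_counit' (padjS i) (strC i ⟨P, hP⟩ (qOf i p)), ← (DCoh.Lpull i).map_comp_assoc]
  change _ = (DCoh.Lpull i).map (inv w ≫ w) ≫ _
  simp

end Groth.Agent.Dual.H356.DProj
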