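import Groth.Agent.Dual.H356.JShriek
import Groth.Agent.Dual.H356.TensX

/-!
# Base change of internal Hom pairs in `D(O)`: local to global
-/

set_option autoImplicit false
universe u

open CategoryTheory CategoryTheory.Limits AlgebraicGeometry MonoidalCategory Pretriangulated
attribute [local instance] HasDerivedCategory.standard

open scoped Groth.Agent.Dcoh.MonCat Groth.Agent.Dcoh.ModD Groth.Agent.Dcoh.MonPull Groth.Agent.Dual.H356.LpMon

namespace Groth.Agent.Dual.H356.HomPairBC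

open Groth.Agent.Dcoh AbsPair AbsTw TBij Functor.LaxMonoidal

variable {X W : Scheme.{u}}

/-- Internal Homs exist. -/
lemma exists_adj (A : DCoh.D X) : ∃ R : DCoh.D X ⥤ DCoh.D X, Nonempty (tensorRight A ⊣ R) := by
  have := ModTens.hasLTensorCx (DerivedCategory.Q.objPreimage A)
  have := PerfC.RHomD.hasRSheafHom (DerivedCategory.Q.objPreimage A)
  exact ⟨_, ⟨(ModTens.adjQ (DerivedCategory.Q.objPreimage A)).ofNatIsoLeft
    ((tensoringRight (DCoh.D X)).mapIso (DerivedCategory.Q.objObjPreimageIso A))⟩⟩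

/-- An object of `D(O)` which is `≥ n` for all `n` is zero. -/
lemma isIso_of_forall_isGE {T : Triangle (DCoh.D X)} (hT : T ∈ distTriang _) (h : ∀ n : ℤ, T.obj₃.IsGE n) :
    IsIso T.mor₁ := by
  have hz : IsZero T.obj₃ := by
    rw [PerfA.ExactD.isZero_iff]
    intro n
    have := h (n + 1)
    exact DerivedCategory.isZero_of_isGE _ (n + 1) n (by omega)
  exact (Triangle.isZero₃_iff_isIso₁ T hT).1 hz

/-- `A` has approximations by dualizable objects. -/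
def HasApprox (A : DCoh.D X) : Prop :=
  ∀ m : ℤ, ∃ (F Y Z : DCoh.D X) (_ : ExactPairing F Y) (α : F ⟶ A) (β : A ⟶ Z) (γ : Z ⟶ F⟦(1 : ℤ)⟧),
    Triangle.mk α β γ ∈ distTriang _ ∧ Z.IsLE m

variable (u : W ⟶ X) [DCoh.HasLpull u] (M : DCoh.D W)

/-- The hypotheses on a chart. -/
structure Chart (A L : DCoh.D X) {V V' : Scheme.{u}} (j : V ⟶ X) (j' : V' ⟶ W) (u' : V' ⟶ V)
    [DCoh.HasLpull j] [DCoh.HasLpull j'] [DCoh.HasLpull u'] : Prop where
  sq : j' ≫ u = u' ≫ j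
  geL : ∃ s : ℤ, ((DCoh.Lpull j).obj L).IsGE s
  geM : ∃ c : ℤ, ∀ (Z : DCoh.D V) (n : ℤ), Z.IsGE n →
    ((DCoh.Lpull j').obj M ⊗ (DCoh.Lpull u').obj Z).IsGE (n + c)
  approx : HasApprox ((DCoh.Lpull j).obj A)

/-- The comparison morphism is an isomorphism on a chart. -/
theorem isIso_chart {A R L : DCoh.D X} {e : R ⊗ A ⟶ L} (he : IsHomPair A R L e) {V V' : Scheme.{u}} (j : V ⟶ X)
    (j' : V' ⟶ W) (u' : V' ⟶ V) [DCoh.HasLpull j] [DCoh.HasLpull j'] [DCoh.HasLpull u'] [IsOpenImmersion j]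
    [IsOpenImmersion j'] (hc : Chart u M A L j j' u') {R' : DCoh.D W}
    {e' : R' ⊗ (DCoh.Lpull u).obj A ⟶ M ⊗ (DCoh.Lpull u).obj L}
    (he' : IsHomPair ((DCoh.Lpull u).obj A) R' (M ⊗ (DCoh.Lpull u).obj L) e')
    (c : M ⊗ (DCoh.Lpull u).obj R ⟶ R') (hc' : c ▷ (DCoh.Lpull u).obj A ≫ e' = tw (DCoh.Lpull u) M e) :
    IsIso ((DCoh.Lpull j').map c) := by
  have := JShriek.isIso_proj j A
  have := JShriek.isIso_proj j' ((DCoh.Lpull u).obj A)
  have h1 := isHomPair_restrict (DCoh.Lpull j) (JShriek.adj j) he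
  have h2 := isHomPair_restrict (DCoh.Lpull j') (JShriek.adj j') he'
  have := LpMon.isMonoidal_lpullSq u hc.sq
  obtain ⟨s, hs⟩ := hc.geL
  obtain ⟨c', hc'⟩ := hc.geM
  obtain ⟨Q, g, h, hQ⟩ := distinguished_cocone_triangle ((DCoh.Lpull j').map c)
  refine isIso_of_forall_isGE hQ fun n => ?_
  refine isGE_of_bij hQ n fun E hE => ?_
  refine bij_of_restrict (DCoh.Lpull u) M (DCoh.Lpull u') (DCoh.Lpull j) (DCoh.Lpull j') (LpMon.lpullSq u hc.sq) h2 c
    (by assumption) E ?_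
  obtain ⟨F, Y, Z, _, α, β, γ, hT, hZ⟩ := hc.approx (s + c' - n - 3)
  exact bij_tw (F := F) (Y := Y) (TensX.tensT V) (TensX.tensT V') (DCoh.Lpull u') (TensX.exact_lpull u')
    (fun Z n hZ => TensX.isLE_lpull u' Z n hZ) ((DCoh.Lpull j').obj M) c' hc' h1 s hs hT rfl rfl
    (s + c' - n - 3) hZ n (by omega) E hE

/-- Base change of internal Hom pairs. -/
theorem isHomPair_tw {A R L : DCoh.D X} {e : R ⊗ A ⟶ L} (he : IsHomPair A R L e)
    (hloc : ∀ w : W, ∃ (V' : W.Opens) (V : Scheme.{u}) (j : V ⟶ X) (u' : V'.toScheme ⟶ V) (_ : IsOpenImmersion j)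
      (_ : DCoh.HasLpull j) (_ : DCoh.HasLpull V'.ι) (_ : DCoh.HasLpull u'), w ∈ V' ∧ Chart u M A L j V'.ι u') :
    IsHomPair ((DCoh.Lpull u).obj A) (M ⊗ (DCoh.Lpull u).obj R) (M ⊗ (DCoh.Lpull u).obj L)
      (tw (DCoh.Lpull u) M e) := by
  obtain ⟨RH, ⟨adj⟩⟩ := exists_adj ((DCoh.Lpull u).obj A)
  have he' := isHomPair_of_adj adj (M ⊗ (DCoh.Lpull u).obj L)
  obtain ⟨c, hc⟩ := (he' (M ⊗ (DCoh.Lpull u).obj R)).2 (tw (DCoh.Lpull u) M e)
  dsimp at hc
  have : IsIso c := JShriek.isIso_of_lpull c fun w => by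
    obtain ⟨V', V, j, u', _, _, _, _, hw, hch⟩ := hloc w
    exact ⟨V', ‹_›, hw, isIso_chart u M he j V'.ι u' hch he' c hc⟩
  exact he'.of_iso (asIso c) (Iso.refl _) _ (by simp [hc])

end Groth.Agent.Dual.H356.HomPairBC
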