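import Groth.Agent.Dual.H356.LpMon
import Groth.Agent.Dcoh.ProjShriekD

/-!
# The left adjoint of `Lj^*` for an open immersion `j`, and its projection formula
-/

set_option autoImplicit false
universe u

open CategoryTheory CategoryTheory.Limits AlgebraicGeometry MonoidalCategory
attribute [local instance] HasDerivedCategory.standard

open scoped Groth.Agent.Dcoh.MonCat Groth.Agent.Dcoh.ModD Groth.Agent.Dcoh.MonPull Groth.Agent.Dual.H356.LpMon

namespace Groth.Agent.Dual.H356.JShriek

open Groth.Agent.Dcoh Groth.Agent.PerfC.Supp Groth.Agent.PerfC.ExtZeroD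

variable {X U : Scheme.{u}} (j : U ⟶ X) [IsOpenImmersion j] [DCoh.HasLpull j]

/-- `j_! ⊣ Lj^*`. -/
noncomputable def adj : shriekD j ⊣ DCoh.Lpull j :=
  (adjunction j).ofNatIsoRight (DerPull.lpullOpenIso j).symm

instance isIso_unit_app (N : DCoh.D U) : IsIso ((adj j).unit.app N) := by
  have h : (adj j).unit.app N = (adjunction j).unit.app N ≫ (DerPull.lpullOpenIso j).inv.app _ := by
    simp [adj, Adjunction.ofNatIsoRight, Adjunction.equivHomsetRightOfNatIso]
  rw [h]
  infer_instance

open Functor.LaxMonoidal in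
/-- The projection formula. -/
theorem isIso_proj (K : DCoh.D X) : IsIso (DualLoc.proj (DCoh.Lpull j) (adj j) K) := by
  have key : ∀ N : DCoh.D U, IsIso ((DualLoc.proj (DCoh.Lpull j) (adj j) K).app N) := by
    intro N
    refine isIso_of_supp (j := j) _ (fun i => supp_shriekD_subset_range j _ i)
      (fun i => ProjShriekD.supp_tensor_subset_range j N K i) ?_
    let η := (adj j).unit.app (N ⊗ (DCoh.Lpull j).obj K)
    let φ := (DualLoc.proj (DCoh.Lpull j) (adj j) K).app N
    have h : η ≫ (DCoh.Lpull j).map φ = (adj j).unit.app N ▷ (DCoh.Lpull j).obj K ≫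
          μ (DCoh.Lpull j) ((shriekD j).obj N) K :=
      (Adjunction.homEquiv_unit (adj j) _ _ φ).symm.trans (Equiv.apply_symm_apply _ _)
    have h1 : IsIso (η ≫ (DCoh.Lpull j).map φ) := by
      rw [h]
      infer_instance
    have h2 : IsIso η := inferInstance
    have h3 : IsIso ((DCoh.Lpull j).map φ) := IsIso.of_isIso_comp_left η _
    exact (NatIso.isIso_map_iff (DerPull.lpullOpenIso j) φ).1 h3
  exact NatIso.isIso_of_isIso_app _

/-- Isomorphisms can be checked after applying `Lj^*` for a covering family. -/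
theorem isIso_of_lpull {K L : DCoh.D X} (φ : K ⟶ L)
    (h : ∀ x : X, ∃ (U : X.Opens) (_ : DCoh.HasLpull U.ι), x ∈ U ∧ IsIso ((DCoh.Lpull U.ι).map φ)) : IsIso φ :=
  PerfA.Restrict.isIso_of_restrictD_opens φ fun x => by
    obtain ⟨U, _, hx, h⟩ := h x
    exact ⟨U, hx, (NatIso.isIso_map_iff (DerPull.lpullOpenIso U.ι) φ).1 h⟩

end Groth.Agent.Dual.H356.JShriek
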