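import Groth.Agent.Dual.H356.TBij
import Mathlib.Algebra.Homology.DerivedCategory.HomologySequence
import Groth.Agent.Cohder.PCTri

/-!
# Morphisms with cone in degrees `≤ -1`
-/

set_option autoImplicit false

open CategoryTheory Limits Pretriangulated

namespace Groth.Agent.Dual.H356.NegCone

open TBij

universe w w' v v' u u'

section

variable {A : Type u} [Category.{v} A] [Abelian A] [HasDerivedCategory.{w} A]
  {B : Type u'} [Category.{v'} B] [Abelian B] [HasDerivedCategory.{w'} B]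

/-- The cone of `f` is in degrees `≤ -1`. -/
def NegCone {X Y : DerivedCategory A} (f : X ⟶ Y) : Prop :=
  ∃ (Z : DerivedCategory A) (g : Y ⟶ Z) (h : Z ⟶ X⟦(1 : ℤ)⟧), Triangle.mk f g h ∈ distTriang _ ∧ Z.IsLE (-1)

lemma NegCone.injective {X Y : DerivedCategory A} {f : X ⟶ Y} (hf : NegCone f) {Z : DerivedCategory A}
    (hZ : Z.IsGE 0) {a b : Y ⟶ Z} (h : f ≫ a = f ≫ b) : a = b := by
  obtain ⟨Q, g, k, hT, hQ⟩ := hf
  have h1 : f ≫ (a - b) = 0 := by rw [Preadditive.comp_sub, h, sub_self]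
  obtain ⟨z, hz⟩ := Triangle.yoneda_exact₂ _ hT (a - b) h1
  have h2 : z = 0 := DerivedCategory.TStructure.t.zero_of_isLE_of_isGE z (-1) 0 (by omega) hQ hZ
  rw [h2, comp_zero] at hz
  exact sub_eq_zero.1 hz

lemma NegCone.of_arrow_iso {X Y X' Y' : DerivedCategory A} {f : X ⟶ Y} (hf : NegCone f) (f' : X' ⟶ Y')
    (a : X' ≅ X) (b : Y' ≅ Y) (h : f' ≫ b.hom = a.hom ≫ f) : NegCone f' := by
  obtain ⟨Q, g, k, hT, hQ⟩ := hf
  refine ⟨Q, b.hom ≫ g, k ≫ (a.inv)⟦(1 : ℤ)⟧', ?_, hQ⟩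
  refine isomorphic_distinguished _ hT _ ?_
  refine Triangle.isoMk _ _ a b (Iso.refl _) ?_ ?_ ?_
  · exact h
  · exact Category.comp_id _
  · refine Eq.trans ?_ (Category.id_comp _).symm
    change (k ≫ (a.inv)⟦(1 : ℤ)⟧') ≫ (a.hom)⟦(1 : ℤ)⟧' = k
    rw [Category.assoc, ← Functor.map_comp, Iso.inv_hom_id, CategoryTheory.Functor.map_id, Category.comp_id]

lemma NegCone.iso_comp {X Y X' : DerivedCategory A} {f : X ⟶ Y} (hf : NegCone f) (a : X' ⟶ X) [IsIso a] :
    NegCone (a ≫ f) :=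
  hf.of_arrow_iso _ (asIso a) (Iso.refl _) (by simp)

lemma NegCone.comp_iso {X Y Y' : DerivedCategory A} {f : X ⟶ Y} (hf : NegCone f) (b : Y ⟶ Y') [IsIso b] :
    NegCone (f ≫ b) :=
  hf.of_arrow_iso _ (Iso.refl _) (asIso b).symm (by simp)

lemma NegCone.map {X Y : DerivedCategory A} {f : X ⟶ Y} (hf : NegCone f)
    {F : DerivedCategory A ⥤ DerivedCategory B} (hF : Exact F)
    (hF1 : ∀ (Z : DerivedCategory A) (n : ℤ), Z.IsLE n → (F.obj Z).IsLE n) : NegCone (F.map f) := by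
  obtain ⟨Q, g, k, hT, hQ⟩ := hf
  obtain ⟨k', hk'⟩ := hF.exists_triangle hT
  exact ⟨_, _, _, hk', hF1 _ _ hQ⟩

lemma negCone_of_epi {X Y : DerivedCategory A} (f : X ⟶ Y) (hX : X.IsLE 0) (hY : Y.IsLE 0)
    (h : Epi ((DerivedCategory.homologyFunctor A 0).map f)) : NegCone f := by
  obtain ⟨Q, g, k, hT⟩ := distinguished_cocone_triangle f
  refine ⟨Q, g, k, hT, ?_⟩
  rw [DerivedCategory.isLE_iff]
  intro n hn
  have hz : IsZero ((DerivedCategory.homologyFunctor A (n + 1)).obj X) :=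
    DerivedCategory.isZero_of_isLE X 0 (n + 1) (by omega)
  have hepi : Epi ((DerivedCategory.homologyFunctor A n).map f) := by
    by_cases hn0 : n = 0
    · subst hn0
      exact h
    · have hz' : IsZero ((DerivedCategory.homologyFunctor A n).obj Y) :=
        DerivedCategory.isZero_of_isLE Y 0 n (by omega)
      exact ⟨fun a b _ => hz'.eq_of_src _ _⟩
  have h1 := (DerivedCategory.HomologySequence.epi_homologyMap_mor₁_iff _ hT n).1 hepi
  have h2 : Epi ((DerivedCategory.homologyFunctor A n).map (Triangle.mk f g k).mor₂) :=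
    (DerivedCategory.HomologySequence.epi_homologyMap_mor₂_iff _ hT n (n + 1) rfl).2 (hz.eq_of_tgt _ _)
  exact @IsZero.of_epi_eq_zero _ _ _ _ _ _ h2 h1

/-- The case of complexes concentrated in degree `0`. -/
lemma negCone_Q {K L : CochainComplex A ℤ} (φ : K ⟶ L) (hK : ∀ n, n ≠ 0 → IsZero (K.X n))
    (hL : ∀ n, n ≠ 0 → IsZero (L.X n)) (h : Epi (φ.f 0)) : NegCone (DerivedCategory.Q.map φ) := by
  have hK0 : K.IsStrictlyLE 0 := (CochainComplex.isStrictlyLE_iff K 0).2 fun i hi => hK i (by omega)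
  have hL0 : L.IsStrictlyLE 0 := (CochainComplex.isStrictlyLE_iff L 0).2 fun i hi => hL i (by omega)
  refine negCone_of_epi _ ?_ ?_ ?_
  · rw [DerivedCategory.isLE_Q_obj_iff]
    infer_instance
  · rw [DerivedCategory.isLE_Q_obj_iff]
    infer_instance
  · rw [Groth.Agent.Cohder.PCTri.epi_homologyFunctor_Q_map_iff]
    have h1 : IsIso (K.iCycles 0) := K.isIso_iCycles 0 1 (by simp) ((hK 1 (by omega)).eq_of_tgt _ _)
    have h2 : IsIso (L.iCycles 0) := L.isIso_iCycles 0 1 (by simp) ((hL 1 (by omega)).eq_of_tgt _ _)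
    have h3 : HomologicalComplex.cyclesMap φ 0 = K.iCycles 0 ≫ φ.f 0 ≫ inv (L.iCycles 0) := by
      rw [← cancel_mono (L.iCycles 0)]
      simp
    have h4 : Epi (HomologicalComplex.cyclesMap φ 0) := by
      rw [h3]
      infer_instance
    have h5 : Epi (K.homologyπ 0 ≫ HomologicalComplex.homologyMap φ 0) := by
      rw [HomologicalComplex.homologyπ_naturality]
      infer_instance
    exact epi_of_epi (K.homologyπ 0) _

end

end Groth.Agent.Dual.H356.NegCone
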