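import Groth.Agent.Dual.H356.AbsTw
import Mathlib.Algebra.Homology.DerivedCategory.TStructure
import Mathlib.CategoryTheory.Triangulated.TStructure.TruncLTGE

/-!
# Bijectivity on Hom groups and the t-structure
-/

set_option autoImplicit false

open CategoryTheory MonoidalCategory Limits Pretriangulated

namespace Groth.Agent.Dual.H356.TBij

open Functor.LaxMonoidal Functor.OplaxMonoidal AbsPair AbsTw Groth.Agent.Dcoh

universe w w' v v' u u'

section

variable {A : Type u} [Category.{v} A] [Abelian A] [HasDerivedCategory.{w} A]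

local notation "t" => DerivedCategory.TStructure.t (C := A)

/-- If `Hom(E, X) ⟶ Hom(E, Y)` is bijective for all `E ≤ n` then the cone of `X ⟶ Y` is `≥ n`. -/
lemma isGE_of_bij {T : Triangle (DerivedCategory A)} (hT : T ∈ distTriang _) (n : ℤ)
    (h : ∀ E : DerivedCategory A, E.IsLE n → Function.Bijective fun x : E ⟶ T.obj₁ => x ≫ T.mor₁) :
    T.obj₃.IsGE n := by
  refine ((t).isGE_iff_orthogonal (n - 1) n (by omega) _).2 ?_
  intro E z hE
  have hE' : E.IsLE (n - 1) := hE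
  have hE1 : E.IsLE n := (t).isLE_of_le E (n - 1) n (by omega)
  have hE2 : (E⟦(-1 : ℤ)⟧).IsLE n := (t).isLE_shift E (n - 1) (-1) n (by omega)
  have h1 : z ≫ T.mor₃ = 0 := by
    have h2 : (z ≫ T.mor₃) ≫ T.mor₁⟦(1 : ℤ)⟧' = 0 := by
      rw [Category.assoc, comp_distTriang_mor_zero₃₁ _ hT, comp_zero]
    let e : E⟦(-1 : ℤ)⟧⟦(1 : ℤ)⟧ ≅ E := (shiftFunctorCompIsoId (DerivedCategory A) (-1 : ℤ) 1 (by omega)).app E
    obtain ⟨y, hy⟩ := (shiftFunctor (DerivedCategory A) (1 : ℤ)).map_surjective (e.hom ≫ z ≫ T.mor₃)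
    have h3 : y ≫ T.mor₁ = 0 := by
      apply (shiftFunctor (DerivedCategory A) (1 : ℤ)).map_injective
      rw [Functor.map_comp, hy, Functor.map_zero]
      simp only [Category.assoc] at h2 ⊢
      rw [h2, comp_zero]
    have h4 : y = 0 := (h _ hE2).1 (by simpa using h3)
    rw [h4, Functor.map_zero] at hy
    rw [← cancel_epi e.hom, ← hy, comp_zero]
  obtain ⟨y, hy⟩ := Triangle.coyoneda_exact₃ T hT z h1
  obtain ⟨x, hx⟩ := (h E hE1).2 y
  dsimp at hx
  rw [hy, ← hx, Category.assoc, comp_distTriang_mor_zero₁₂ _ hT, comp_zero]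

/-- If `Hom(E, Z) = 0 = Hom(E, Z[-1])` then `Hom(E, X) ⟶ Hom(E, Y)` is bijective. -/
lemma bij_of_zero {T : Triangle (DerivedCategory A)} (hT : T ∈ distTriang _) (E : DerivedCategory A)
    (h1 : ∀ z : E ⟶ T.obj₃, z = 0) (h2 : ∀ z : E ⟶ T.obj₃⟦(-1 : ℤ)⟧, z = 0) :
    Function.Bijective fun x : E ⟶ T.obj₁ => x ≫ T.mor₁ := by
  constructor
  · intro x y hxy
    dsimp at hxy
    have h3 : (x - y) ≫ T.mor₁ = 0 := by rw [Preadditive.sub_comp, hxy, sub_self]
    obtain ⟨z, hz⟩ := Triangle.coyoneda_exact₂ T.invRotate (inv_rot_of_distTriang _ hT) (x - y) h3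
    have h4 : z = 0 := h2 z
    rw [h4, zero_comp] at hz
    exact sub_eq_zero.1 hz
  · intro y
    obtain ⟨x, hx⟩ := Triangle.coyoneda_exact₂ T hT y (h1 _)
    exact ⟨x, hx.symm⟩

/-- If `Hom(Z, L) = 0 = Hom(Z[-1], L)` then `Hom(Y, L) ⟶ Hom(X, L)` is bijective. -/
lemma bij_of_zero' {T : Triangle (DerivedCategory A)} (hT : T ∈ distTriang _) (L : DerivedCategory A)
    (h1 : ∀ z : T.obj₃ ⟶ L, z = 0) (h2 : ∀ z : T.obj₃⟦(-1 : ℤ)⟧ ⟶ L, z = 0) :
    Function.Bijective fun x : T.obj₂ ⟶ L => T.mor₁ ≫ x := by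
  constructor
  · intro x y hxy
    dsimp at hxy
    have h3 : T.mor₁ ≫ (x - y) = 0 := by rw [Preadditive.comp_sub, hxy, sub_self]
    obtain ⟨z, hz⟩ := Triangle.yoneda_exact₂ T hT (x - y) h3
    rw [h1 z, comp_zero] at hz
    exact sub_eq_zero.1 hz
  · intro y
    obtain ⟨x, hx⟩ := Triangle.yoneda_exact₂ T.invRotate (inv_rot_of_distTriang _ hT) y (h2 _)
    exact ⟨x, hx.symm⟩

end

section

variable {A : Type u} [Category.{v} A] [Abelian A] [HasDerivedCategory.{w} A]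
  {B : Type u'} [Category.{v'} B] [Abelian B] [HasDerivedCategory.{w'} B]

/-- `F` is isomorphic to a triangulated functor. -/
def Exact (F : DerivedCategory A ⥤ DerivedCategory B) : Prop :=
  ∃ (G : DerivedCategory A ⥤ DerivedCategory B) (_ : G.CommShift ℤ) (_ : G.IsTriangulated), Nonempty (F ≅ G)

lemma Exact.comp {C : Type*} [Category C] [Abelian C] [HasDerivedCategory C]
    {F : DerivedCategory A ⥤ DerivedCategory B} {G : DerivedCategory B ⥤ DerivedCategory C}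
    (hF : Exact F) (hG : Exact G) : Exact (F ⋙ G) := by
  obtain ⟨F', _, _, ⟨e⟩⟩ := hF
  obtain ⟨G', _, _, ⟨e'⟩⟩ := hG
  exact ⟨F' ⋙ G', inferInstance, inferInstance, ⟨Functor.isoWhiskerRight e G ≪≫ Functor.isoWhiskerLeft F' e'⟩⟩

lemma Exact.of_iso {F G : DerivedCategory A ⥤ DerivedCategory B} (hF : Exact F) (e : G ≅ F) : Exact G := by
  obtain ⟨F', h1, h2, ⟨e'⟩⟩ := hF
  exact ⟨F', h1, h2, ⟨e ≪≫ e'⟩⟩

lemma Exact.of_isTriangulated (F : DerivedCategory A ⥤ DerivedCategory B) [F.CommShift ℤ] [F.IsTriangulated] :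
    Exact F := ⟨F, inferInstance, inferInstance, ⟨Iso.refl _⟩⟩

/-- The image of a distinguished triangle. -/
lemma Exact.exists_triangle {F : DerivedCategory A ⥤ DerivedCategory B} (hF : Exact F)
    {T : Triangle (DerivedCategory A)} (hT : T ∈ distTriang _) :
    ∃ k : F.obj T.obj₃ ⟶ (F.obj T.obj₁)⟦(1 : ℤ)⟧, Triangle.mk (F.map T.mor₁) (F.map T.mor₂) k ∈ distTriang _ := by
  obtain ⟨G, _, _, ⟨e⟩⟩ := hF
  have h1 := G.map_distinguished T hT
  refine ⟨e.hom.app T.obj₃ ≫ G.map T.mor₃ ≫ (G.commShiftIso (1 : ℤ)).hom.app T.obj₁ ≫ (e.inv.app T.obj₁)⟦(1 : ℤ)⟧', ?_⟩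
  refine isomorphic_distinguished _ h1 _ ?_
  refine Triangle.isoMk _ _ (e.app _) (e.app _) (e.app _) ?_ ?_ ?_
  · exact e.hom.naturality T.mor₁
  · exact e.hom.naturality T.mor₂
  · change (e.hom.app T.obj₃ ≫ G.map T.mor₃ ≫ (G.commShiftIso (1 : ℤ)).hom.app T.obj₁ ≫
      (e.inv.app T.obj₁)⟦(1 : ℤ)⟧') ≫ (e.hom.app T.obj₁)⟦(1 : ℤ)⟧' =
      e.hom.app T.obj₃ ≫ G.map T.mor₃ ≫ (G.commShiftIso (1 : ℤ)).hom.app T.obj₁
    simp only [Category.assoc, ← Functor.map_comp, Iso.inv_hom_id_app]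
    rw [CategoryTheory.Functor.map_id]
    exact congrArg (fun z => e.hom.app T.obj₃ ≫ G.map T.mor₃ ≫ z) (Category.comp_id _)

lemma Exact.nonempty_shift {F : DerivedCategory A ⥤ DerivedCategory B} (hF : Exact F) (X : DerivedCategory A)
    (n : ℤ) : Nonempty (F.obj (X⟦n⟧) ≅ (F.obj X)⟦n⟧) := by
  obtain ⟨G, _, _, ⟨e⟩⟩ := hF
  exact ⟨e.app _ ≪≫ (G.commShiftIso n).app X ≪≫ (shiftFunctor _ n).mapIso (e.app X).symm⟩

/-- `Hom(F Y, L) ⟶ Hom(F X, L)` is bijective if `F Z ≤ a` and `L ≥ b`, `a + 1 < b`. -/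
lemma bij_left {F : DerivedCategory A ⥤ DerivedCategory B} (hF : Exact F)
    {T : Triangle (DerivedCategory A)} (hT : T ∈ distTriang _) (L : DerivedCategory B) (a b : ℤ)
    (h : (F.obj T.obj₃).IsLE a) (hL : L.IsGE b) (hab : a + 1 < b) :
    Function.Bijective fun x : F.obj T.obj₂ ⟶ L => F.map T.mor₁ ≫ x := by
  obtain ⟨k, hk⟩ := hF.exists_triangle hT
  refine bij_of_zero' hk L (fun z => ?_) (fun z => ?_)
  · exact DerivedCategory.TStructure.t.zero_of_isLE_of_isGE z a b (by omega) h hL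
  · have h' : ((F.obj T.obj₃)⟦(-1 : ℤ)⟧).IsLE (a + 1) :=
      DerivedCategory.TStructure.t.isLE_shift _ a (-1) (a + 1) (by omega)
    exact DerivedCategory.TStructure.t.zero_of_isLE_of_isGE z (a + 1) b hab h' hL

/-- `Hom(E, F X) ⟶ Hom(E, F Y)` is bijective if `F Z ≥ b`, `E ≤ a`, `a < b`. -/
lemma bij_right {F : DerivedCategory A ⥤ DerivedCategory B} (hF : Exact F)
    {T : Triangle (DerivedCategory A)} (hT : T ∈ distTriang _) (E : DerivedCategory B) (a b : ℤ)
    (h : (F.obj T.obj₃).IsGE b) (hE : E.IsLE a) (hab : a < b) :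
    Function.Bijective fun x : E ⟶ F.obj T.obj₁ => x ≫ F.map T.mor₁ := by
  obtain ⟨k, hk⟩ := hF.exists_triangle hT
  refine bij_of_zero hk E (fun z => ?_) (fun z => ?_)
  · exact DerivedCategory.TStructure.t.zero_of_isLE_of_isGE z a b hab hE h
  · have h' : ((F.obj T.obj₃)⟦(-1 : ℤ)⟧).IsGE (b + 1) :=
      DerivedCategory.TStructure.t.isGE_shift _ b (-1) (b + 1) (by omega)
    exact DerivedCategory.TStructure.t.zero_of_isLE_of_isGE z a (b + 1) (by omega) hE h'

end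

section

variable {A : Type u} [Category.{v} A] [Abelian A] [HasDerivedCategory.{w} A] [MonoidalCategory (DerivedCategory A)]
  {B : Type u'} [Category.{v'} B] [Abelian B] [HasDerivedCategory.{w'} B] [MonoidalCategory (DerivedCategory B)]

variable (A) in
/-- The tensor product is exact in both variables and right t-exact. -/
structure TensT : Prop where
  left : ∀ E : DerivedCategory A, Exact (tensorLeft E)
  right : ∀ E : DerivedCategory A, Exact (tensorRight E)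
  isLE : ∀ (X Y : DerivedCategory A) (a b : ℤ), X.IsLE a → Y.IsLE b → (X ⊗ Y).IsLE (a + b)

/-- The local form of the base change theorem for internal Hom pairs: bijectivity in low degrees from an
approximation of `K` by a dualizable object. -/
theorem bij_tw (hA : TensT A) (hB : TensT B) (U : DerivedCategory A ⥤ DerivedCategory B) [U.Monoidal] (hU : Exact U)
    (hU1 : ∀ (Z : DerivedCategory A) (n : ℤ), Z.IsLE n → (U.obj Z).IsLE n)
    (M : DerivedCategory B) (c : ℤ)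
    (hM : ∀ (Z : DerivedCategory A) (n : ℤ), Z.IsGE n → (M ⊗ U.obj Z).IsGE (n + c))
    {K R L : DerivedCategory A} {e : R ⊗ K ⟶ L} (he : IsHomPair K R L e) (s : ℤ) (hL : L.IsGE s)
    {F Y : DerivedCategory A} [ExactPairing F Y] {T : Triangle (DerivedCategory A)} (hT : T ∈ distTriang _)
    (eF : T.obj₁ = F) (eK : T.obj₂ = K) (m : ℤ) (hZ : T.obj₃.IsLE m)
    (n : ℤ) (hn : n + m + 2 < s + c) (E : DerivedCategory B) (hE : E.IsLE n) :
    Function.Bijective fun x : E ⟶ M ⊗ U.obj R => x ▷ U.obj K ≫ tw U M e := by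
  subst eF eK
  obtain ⟨ρ, hρ⟩ := (isHomPair_dual T.obj₁ Y L R).2 (R ◁ T.mor₁ ≫ e)
  dsimp at hρ
  -- the cone of `ρ` is bounded below
  have h1 : ∀ E : DerivedCategory A, E.IsLE (s - m - 2) →
      Function.Bijective fun x : E ⟶ R => x ≫ ρ := by
    intro E hE
    have h2 := bij_left (hA.left E) hT L (s - 2) s
      (by
        have := hA.isLE E T.obj₃ (s - m - 2) m hE hZ
        have h3 : s - m - 2 + m = s - 2 := by omega
        rwa [h3] at this) hL (by omega)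
    have h3 : (fun x : E ⟶ L ⊗ Y => x ▷ T.obj₁ ≫ evd T.obj₁ Y L) ∘ (fun x : E ⟶ R => x ≫ ρ) =
        (fun x : E ⊗ T.obj₂ ⟶ L => E ◁ T.mor₁ ≫ x) ∘ (fun x : E ⟶ R => x ▷ T.obj₂ ≫ e) := by
      funext x
      dsimp
      rw [comp_whiskerRight, Category.assoc, hρ, whisker_exchange_assoc]
    refine (Function.Bijective.of_comp_iff' (isHomPair_dual T.obj₁ Y L E) _).1 ?_
    rw [h3]
    exact h2.comp (he E)
  obtain ⟨Q, g, h, hQ⟩ := distinguished_cocone_triangle ρ
  have hQ1 : Q.IsGE (s - m - 2) := isGE_of_bij hQ (s - m - 2) h1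
  refine bij_tw_of_approx U M e T.mor₁ ρ hρ E ?_ ?_
  · exact bij_right (F := U ⋙ tensorLeft M) (hU.comp (hB.left M)) hQ E n (s - m - 2 + c) (hM Q _ hQ1) hE (by omega)
  · refine bij_left (F := U ⋙ tensorLeft E) (hU.comp (hB.left E)) hT (M ⊗ U.obj L) (n + m) (s + c) ?_ (hM L _ hL)
      (by omega)
    exact hB.isLE E (U.obj T.obj₃) n m hE (hU1 _ _ hZ)

end

end Groth.Agent.Dual.H356.TBij
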