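import Groth.Agent.Dual.H356.DProj
import Groth.Agent.Dual.H356.NegCone
import Groth.Agent.CycB.ClosedDev

/-!
# The unit `𝟙_ ⟶ i_* 𝟙_` along a closed immersion
-/

set_option autoImplicit false
universe u

open CategoryTheory CategoryTheory.Limits AlgebraicGeometry MonoidalCategory
attribute [local instance] HasDerivedCategory.standard

open scoped Groth.Agent.Dcoh.MonCat Groth.Agent.Dcoh.ModD Groth.Agent.Dcoh.MonPull Groth.Agent.Dual.H356.LpMon

namespace Groth.Agent.Dual.H356.UnitCone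

open Groth.Agent.Dcoh Groth.Agent.Dcoh.MonCx Groth.Agent.Dcoh.MonD Groth.Agent.Dcoh.ModD Groth.Agent.Dcoh.DerAdj
  Groth.Agent.Dcoh.DerPull AbsPair AbsStr LpMon DProj NegCone Functor.LaxMonoidal Functor.OplaxMonoidal

section Abs

universe v v' u' v₁ v₂ u₁ u₂

variable {C : Type u} [Category.{v} C] [MonoidalCategory C] {D : Type u'} [Category.{v'} D] [MonoidalCategory D]
  {C' : Type u₁} [Category.{v₁} C'] [MonoidalCategory C'] {D' : Type u₂} [Category.{v₂} D'] [MonoidalCategory D']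
  (L : C ⥤ D) [L.Monoidal] (L' : C' ⥤ D') [L'.Monoidal] (H : D ⥤ D') [H.Monoidal] (F : C ⥤ C') [F.Monoidal]
  (ε' : L ⋙ H ≅ F ⋙ L') [ε'.hom.IsMonoidal]

lemma η_lift : η H = H.map (ε L) ≫ ε'.hom.app (𝟙_ C) ≫ L'.map (η F) ≫ η L' := by
  have h := NatTrans.IsMonoidal.unit (τ := ε'.hom)
  rw [Functor.LaxMonoidal.comp_ε, Functor.LaxMonoidal.comp_ε, Category.assoc] at h
  rw [← cancel_epi (ε H), Functor.Monoidal.ε_η, reassoc_of% h]
  simp

end Abs

variable {T W : Scheme.{u}} (i : T ⟶ W) [PreservesFiniteLimits (Scheme.Modules.pushforward i)]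
  [PreservesFiniteColimits (Scheme.Modules.pushforward i)] [DCoh.HasLpull i]

/-- The unit `𝟙_ ⟶ i_* 𝟙_`. -/
noncomputable def unitArrow : 𝟙_ (DCoh.D W) ⟶ (Dual3.pushD i).obj (𝟙_ (DCoh.D T)) :=
  (padjS i).homEquiv _ _ (η (DCoh.Lpull i))

/-- The unit on complexes. -/
noncomputable def unitCx : 𝟙_ (CochainComplex W.Modules ℤ) ⟶ pushO i := (acx i).homEquiv _ _ (η (pbCx i))

lemma unitArrow_eq : unitArrow i = ε (LP (KF W)) ≫ DerivedCategory.Q.map (unitCx i) ≫
    (Scheme.Modules.pushforward i).mapDerivedCategoryFactors.inv.app (𝟙_ (CochainComplex T.Modules ℤ)) ≫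
      (Dual3.pushD i).map (η (LP (KF T))) := by
  rw [unitArrow, η_lift (LP (KF W)) (LP (KF T)) (DCoh.Lpull i) (kfPull i) (lfIso i),
    Adjunction.homEquiv_naturality_left]
  refine congrArg (fun t => ε (LP (KF W)) ≫ t) ?_
  rw [← Category.assoc, Adjunction.homEquiv_naturality_right]
  have h2 := padjS_homEquiv_Q i (η (pbCx i))
  refine (congrArg (fun t => t ≫ (Dual3.pushD i).map (η (LP (KF T)))) h2).trans ?_
  rw [Category.assoc]
  rfl

omit [PreservesFiniteLimits (Scheme.Modules.pushforward i)]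
  [PreservesFiniteColimits (Scheme.Modules.pushforward i)] [DCoh.HasLpull i] in
lemma epi_unitCx [IsClosedImmersion i] : Epi ((unitCx i).f 0) := by
  have h : (unitCx i).f 0 = (Scheme.Modules.pullbackPushforwardAdjunction i).unit.app _ ≫
      (Scheme.Modules.pushforward i).map ((η (pbCx i)).f 0) := rfl
  rw [h]
  have h1 := CycB.ClosedDev.epi_unit i ((𝟙_ (CochainComplex W.Modules ℤ)).X 0)
  have h2 : IsIso ((η (pbCx i)).f 0) :=
    inferInstanceAs (IsIso ((HomologicalComplex.eval _ _ 0).map (η (pbCx i))))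
  have h3 : IsIso ((Scheme.Modules.pushforward i).map ((η (pbCx i)).f 0)) := Functor.map_isIso _ _
  exact @epi_comp _ _ _ _ _ _ h1 _ (@IsIso.epi_of_iso _ _ _ _ _ h3)

theorem negCone_unitArrow [IsClosedImmersion i] : NegCone (unitArrow i) := by
  rw [unitArrow_eq]
  have h7 : IsIso ((Scheme.Modules.pushforward i).mapDerivedCategoryFactors.inv.app
      (𝟙_ (CochainComplex T.Modules ℤ))) := NatIso.inv_app_isIso _ _
  have h8 : IsIso ((Scheme.Modules.pushforward i).mapDerivedCategoryFactors.inv.app (𝟙_ (CochainComplex T.Modules ℤ)) ≫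
      (Dual3.pushD i).map (η (LP (KF T)))) := IsIso.comp_isIso' h7 inferInstance
  have h : NegCone (DerivedCategory.Q.map (unitCx i)) :=
    negCone_Q _ (fun n hn => MonMap.isZero_unit_X n hn)
      (fun n hn => (Scheme.Modules.pushforward i).map_isZero (MonMap.isZero_unit_X n hn)) (epi_unitCx i)
  exact (@NegCone.comp_iso _ _ _ _ _ _ _ _ h _ h8).iso_comp (ε (LP (KF W)))

end Groth.Agent.Dual.H356.UnitCone
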